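import Cfsg.Agent.H87.Ore.Basic

/-!
Certificates for small special linear groups: a matrix is coded by a natural number whose
digits in base `p` are the entries, column by column.
-/

set_option autoImplicit false

namespace Cfsg.Agent.H87.Ore

/-- The entry `(i, j)` of a coded matrix. -/
def ent (p n A i j : ℕ) : ℕ := A / p ^ (n * j + i) % p

/-- The check `A * B = C`. -/
def mulOK (p n A B C : ℕ) : Bool :=
  (List.range n).all fun i => (List.range n).all fun j =>
    ((List.range n).map fun k => ent p n A i k * ent p n B k j).sum % p == ent p n C i j

/-- The determinant in dimension three, as a natural number. -/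
def det3 (p S : ℕ) : ℕ :=
  let a := ent p 3 S
  a 0 0 * a 1 1 * a 2 2 + a 0 1 * a 1 2 * a 2 0 + a 0 2 * a 1 0 * a 2 1 +
    (p - 1) * (a 0 0 * a 1 2 * a 2 1 + a 0 1 * a 1 0 * a 2 2 + a 0 2 * a 1 1 * a 2 0)

/-- A certificate: a kernel vector, a determinant other than one in dimension three, or the six
matrices of a quotient. -/
inductive Wit where
  | ker (v : ℕ)
  | bad
  | pair (G L Q Qi P Pi : ℕ)

/-- The check of one certificate; `one` codes the unit matrix and `cc` the companion matrix. -/
def Wit.ok (p n one cc S : ℕ) : Wit → Bool
  | .ker v => ((List.range n).any fun i => v / p ^ i % p != 0) &&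
      (List.range n).all fun i =>
        ((List.range n).map fun k => ent p n S i k * (v / p ^ k % p)).sum % p == 0
  | .bad => n == 3 && det3 p S % p != 1
  | .pair G L Q Qi P Pi => mulOK p n Q Qi one && mulOK p n P Pi one && mulOK p n S G L &&
      (let K := (List.range n).map fun i => (List.range n).map fun j =>
        ((List.range n).map fun k => ent p n Q i k * ent p n cc k j).sum % p
      (List.range n).all fun i => (List.range n).all fun j =>
        ((List.range n).map fun k => ent p n G i k * ent p n Q k j).sum % p ==
          (K.getD i []).getD j p) &&
      (let K := (List.range n).map fun i => (List.range n).map fun j =>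
        ((List.range n).map fun k => ent p n P i k * ent p n cc k j).sum % p
      (List.range n).all fun i => (List.range n).all fun j =>
        ((List.range n).map fun k => ent p n L i k * ent p n P k j).sum % p ==
          (K.getD i []).getD j p)

/-- Each case has its certificate. -/
def covered (p n one cc : ℕ) : List ℕ → List Wit → Bool
  | [], _ => true
  | _ :: _, [] => false
  | s :: ss, w :: ws => w.ok p n one cc s && covered p n one cc ss ws

lemma exists_ok_of_covered {p n one cc : ℕ} : ∀ {ss : List ℕ} {ws : List Wit},
    covered p n one cc ss ws = true → ∀ s ∈ ss, ∃ w : Wit, w.ok p n one cc s = true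
  | [], _, _, s, hs => absurd hs (List.not_mem_nil)
  | _ :: _, [], h, _, _ => Bool.noConfusion h
  | a :: ss, w :: ws, h, s, hs => by
    rw [covered, Bool.and_eq_true] at h
    rcases List.mem_cons.1 hs with rfl | hs
    · exact ⟨w, h.1⟩
    · exact exists_ok_of_covered h.2 s hs

/-- The reduced cases: the first column is the second unit vector, the second column is either
the third unit vector or supported on the first two places. -/
def redCases (p n : ℕ) : List ℕ :=
  (List.range (p ^ 2 + 1)).flatMap fun c =>
    (List.range (p ^ (n * (n - 2)))).map fun r => p + p ^ n * (c + p ^ n * r)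

end Cfsg.Agent.H87.Ore
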