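import Cfsg.Agent.H87.Ore.Step
import Cfsg.Agent.H87.Ore.Tbl

/-!
The base cases of the induction: degree two in general, and small tables.
-/

set_option autoImplicit false

namespace Cfsg.Agent.H87.Ore

open Polynomial Module

universe u v

variable {F : Type u} [Field F] {V : Type v} [AddCommGroup V] [Module F V]

/-- Eigenvectors for two distinct values generate. -/
lemma good_of_eigen {L : Module.End F V} {a c : V} {l m : F} (hlm : l ≠ m) (ha : L a = l • a)
    (hc : L c = m • c) (hsp : ∀ x, ∃ s t : F, s • a + t • c = x) :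
    Good ((X - C l) * (X - C m)) L := by
  have eA : ∀ p : F[X], aeval L p a = p.eval l • a := fun p => by
    induction p using Polynomial.induction_on' with
    | add p r hp hr => simp [hp, hr, add_smul]
    | monomial i z =>
      have : ∀ i : ℕ, (L ^ i) a = l ^ i • a := fun i => by
        induction i with
        | zero => simp
        | succ i ih => rw [pow_succ, Module.End.mul_apply, ha, map_smul, ih, smul_smul, pow_succ']
      simp [aeval_monomial, this, smul_smul, mul_comm]
  have eC : ∀ p : F[X], aeval L p c = p.eval m • c := fun p => by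
    induction p using Polynomial.induction_on' with
    | add p r hp hr => simp [hp, hr, add_smul]
    | monomial i z =>
      have : ∀ i : ℕ, (L ^ i) c = m ^ i • c := fun i => by
        induction i with
        | zero => simp
        | succ i ih => rw [pow_succ, Module.End.mul_apply, hc, map_smul, ih, smul_smul, pow_succ']
      simp [aeval_monomial, this, smul_smul, mul_comm]
  refine ⟨LinearMap.ext fun x => ?_, a + c, fun x => ?_⟩
  · obtain ⟨s, t, rfl⟩ := hsp x
    simp only [map_add, map_smul, eA, eC]
    simp
  · obtain ⟨s, t, rfl⟩ := hsp x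
    refine ⟨C (s / (l - m)) * (X - C m) + C (t / (m - l)) * (X - C l), ?_⟩
    simp only [map_add (aeval L), LinearMap.add_apply]
    simp only [map_add, eA, eC]
    simp [div_mul_cancel₀ _ (sub_ne_zero.2 hlm), div_mul_cancel₀ _ (sub_ne_zero.2 hlm.symm)]

/-- A map which is not scalar moves some line. -/
lemma exists_not_eigen {S : Module.End F V} (h : ∀ l : F, S ≠ l • 1) :
    ∃ v, LinearIndependent F ![v, S v] := by
  by_contra hcon
  push Not at hcon
  have hev : ∀ x, x ≠ 0 → ∃ a : F, a • x = S x := fun x hx => by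
    by_contra h'
    push Not at h'
    exact hcon x ((LinearIndependent.pair_iff' hx).2 h')
  rcases subsingleton_or_nontrivial V with hV | hV
  · exact h 0 (LinearMap.ext fun x => Subsingleton.elim _ _)
  obtain ⟨v, hv⟩ := exists_ne (0 : V)
  obtain ⟨a, ha⟩ := hev v hv
  refine h a (LinearMap.ext fun x => ?_)
  rw [LinearMap.smul_apply, Module.End.one_apply]
  by_cases hx : x ∈ Submodule.span F {v}
  · obtain ⟨t, rfl⟩ := Submodule.mem_span_singleton.1 hx
    rw [map_smul, ← ha, smul_comm]
  · have hli : LinearIndependent F ![v, x] := (LinearIndependent.pair_iff' hv).2 fun t ht =>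
      hx (Submodule.mem_span_singleton.2 ⟨t, ht⟩)
    have hx0 : x ≠ 0 := fun h0 => hx (by rw [h0]; exact Submodule.zero_mem _)
    have hvx : v + x ≠ 0 := fun h0 => hx (Submodule.mem_span_singleton.2
      ⟨-1, by rw [neg_one_smul]; exact neg_eq_of_add_eq_zero_right h0⟩)
    obtain ⟨c, hc⟩ := hev x hx0
    obtain ⟨e, he⟩ := hev _ hvx
    rw [map_add, ← ha, ← hc, smul_add] at he
    obtain ⟨h1, h2⟩ := LinearIndependent.pair_iff.1 hli (e - a) (e - c) (by
      rw [sub_smul, sub_smul, sub_add_sub_comm, he, sub_self])
    rw [← hc, ← sub_eq_zero.1 h2, sub_eq_zero.1 h1]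

variable [FiniteDimensional F V]

/-- Degree two. -/
theorem gpair_two {l : F} (hl0 : l ≠ 0) (hl : l ≠ l⁻¹) (hV : finrank F V = 2)
    {S : Module.End F V} (hS : LinearMap.det S = 1) (hscal : ∀ a : F, S = a • 1 → a = 1) :
    GPair ((X - C l) * (X - C l⁻¹)) S := by
  classical
  have hlm : l - l⁻¹ ≠ 0 := sub_ne_zero.2 hl
  by_cases hns : ∀ a : F, S ≠ a • 1
  · obtain ⟨v, hv⟩ := exists_not_eigen hns
    let b := basisOfLinearIndependentOfCardEqFinrank hv (by simp [hV])
    have hb0 : b 0 = v := by simp [b]
    have hb1 : b 1 = S v := by simp [b]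
    have hrep := b.sum_repr (S (S v))
    rw [Fin.sum_univ_two, hb0, hb1] at hrep
    set a := b.repr (S (S v)) 0 with haa
    set t := b.repr (S (S v)) 1 with htt
    have ha : a = -1 := by
      have hM : LinearMap.toMatrix b b S = !![0, a; 1, t] := by
        ext i j
        have hbv : b.repr (S v) = Finsupp.single 1 1 := by rw [← hb1, b.repr_self]
        rw [LinearMap.toMatrix_apply]
        fin_cases i <;> fin_cases j <;> simp [hb0, hb1, hbv, haa, htt]
      have := LinearMap.det_toMatrix b S
      rw [hM, hS, Matrix.det_fin_two_of] at this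
      linear_combination -this
    have hSS : S (S v) = t • S v - v := by rw [← hrep, ha, neg_one_smul]; abel
    set e := l • (S v - v) with he
    have hli : LinearIndependent F ![v, e] := LinearIndependent.pair_iff.2 fun s r hsr => by
      have := LinearIndependent.pair_iff.1 hv (s - r * l) (r * l) (by
        rw [← hsr, he]; module)
      have hr : r = 0 := (mul_eq_zero.1 this.2).resolve_right hl0
      exact ⟨by simpa [hr] using this.1, hr⟩
    let b' := basisOfLinearIndependentOfCardEqFinrank hli (by simp [hV])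
    have hb'0 : b' 0 = v := by simp [b']
    have hb'1 : b' 1 = e := by simp [b']
    set r := t - 2 with hr
    let L : Module.End F V := b'.constr F ![l • v + e, l⁻¹ • e]
    let G : Module.End F V := b'.constr F ![l • v, -r • v + l⁻¹ • e]
    have hLv : L v = l • v + e := by rw [← hb'0, b'.constr_basis]; simp [hb'0]
    have hLe : L e = l⁻¹ • e := by rw [← hb'1, b'.constr_basis]; simp [hb'1]
    have hGv : G v = l • v := by rw [← hb'0, b'.constr_basis]; simp [hb'0]
    have hGe : G e = -r • v + l⁻¹ • e := by rw [← hb'1, b'.constr_basis]; simp [hb'1]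
    have hspan : ∀ x, x = b'.repr x 0 • v + b'.repr x 1 • e := fun x => by
      conv_lhs => rw [← b'.sum_repr x, Fin.sum_univ_two, hb'0, hb'1]
    have hle : ∀ x : V, l⁻¹ • l • x = x := fun x => by rw [smul_smul, inv_mul_cancel₀ hl0, one_smul]
    refine ⟨L, G, ?_, ?_, b'.ext fun i => ?_⟩
    · refine good_of_eigen hl (a := (l - l⁻¹) • v + e) (c := e) ?_ hLe fun x => ?_
      · rw [map_add, map_smul, hLv, hLe]; module
      · refine ⟨b'.repr x 0 / (l - l⁻¹), b'.repr x 1 - b'.repr x 0 / (l - l⁻¹), ?_⟩
        conv_rhs => rw [hspan x]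
        rw [smul_add, smul_smul, div_mul_cancel₀ _ hlm]
        module
    · refine good_of_eigen hl (a := v) (c := r • v + (l - l⁻¹) • e) hGv ?_ fun x => ?_
      · rw [map_add, map_smul, map_smul, hGv, hGe]; module
      · refine ⟨b'.repr x 0 - b'.repr x 1 / (l - l⁻¹) * r, b'.repr x 1 / (l - l⁻¹), ?_⟩
        conv_rhs => rw [hspan x]
        rw [smul_add, smul_smul, smul_smul, div_mul_cancel₀ _ hlm]
        module
    · fin_cases i
      · simp only [Fin.zero_eta, hb'0, Module.End.mul_apply]
        rw [hLv, hGv, map_smul, he]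
        module
      · simp only [Fin.mk_one, hb'1, Module.End.mul_apply]
        rw [hLe, hGe, map_add, map_smul, map_smul, he, map_smul, map_sub, hle, hle, hSS, hr]
        module
  · push Not at hns
    obtain ⟨a, ha⟩ := hns
    obtain rfl := hscal a ha
    let b := Module.finBasisOfFinrankEq F V hV
    let L : Module.End F V := b.constr F ![l • b 0, l⁻¹ • b 1]
    have hL : Good ((X - C l) * (X - C l⁻¹)) L :=
      good_of_eigen hl (a := b 0) (c := b 1) (by rw [b.constr_basis]; rfl)
        (by rw [b.constr_basis]; rfl) fun x => ⟨b.repr x 0, b.repr x 1, by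
          conv_rhs => rw [← b.sum_repr x, Fin.sum_univ_two]⟩
    exact ⟨L, L, hL, hL, by rw [ha, one_smul, one_mul]⟩

section chain

variable {n : ℕ}

/-- A chain through a basis gives a good operator. -/
lemma good_of_chain (b : Basis (Fin (n + 1)) F V) {G : Module.End F V} {c : Fin (n + 1) → F}
    (h1 : ∀ i : Fin n, G (b i.castSucc) = b i.succ)
    (h2 : G (b (Fin.last n)) = ∑ i, c i • b i) :
    Good (X ^ (n + 1) - ∑ i, C (c i) * X ^ (i : ℕ)) G := by
  have hpow : ∀ i : Fin (n + 1), (G ^ (i : ℕ)) (b 0) = b i := fun i => by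
    induction i using Fin.induction with
    | zero => simp
    | succ i ih =>
      rw [Fin.val_succ, pow_succ', Module.End.mul_apply, ← Fin.val_castSucc, ih, h1]
  set g : F[X] := X ^ (n + 1) - ∑ i, C (c i) * X ^ (i : ℕ) with hg
  have hg0 : aeval G g (b 0) = 0 := by
    have hlast : (G ^ n) (b 0) = b (Fin.last n) := by simpa using hpow (Fin.last n)
    rw [hg, map_sub, map_pow, aeval_X, LinearMap.sub_apply, pow_succ', Module.End.mul_apply,
      hlast, h2, map_sum, LinearMap.sum_apply, sub_eq_zero]
    exact Finset.sum_congr rfl fun i _ => by simp [hpow]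
  refine ⟨b.ext fun i => ?_, b 0, fun x => ⟨∑ i, C (b.repr x i) * X ^ (i : ℕ), ?_⟩⟩
  · rw [← hpow i, LinearMap.zero_apply, ← Module.End.mul_apply,
      show G ^ (i : ℕ) = aeval G (X ^ (i : ℕ) : F[X]) by simp, ← map_mul, mul_comm, map_mul,
      Module.End.mul_apply, hg0, map_zero]
  · rw [map_sum, LinearMap.sum_apply]
    conv_rhs => rw [← b.sum_repr x]
    exact Finset.sum_congr rfl fun i _ => by simp [hpow]

/-- The companion matrix with last column `c`. -/
def comp (c : Fin (n + 1) → F) : Matrix (Fin (n + 1)) (Fin (n + 1)) F :=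
  Matrix.of fun i j => if j = Fin.last n then c i else if (i : ℕ) = j + 1 then 1 else 0

/-- A matrix conjugate to the companion matrix gives a good operator. -/
lemma good_of_comp (b : Basis (Fin (n + 1)) F V) {M Q Qi : Matrix (Fin (n + 1)) (Fin (n + 1)) F}
    {c : Fin (n + 1) → F} (hQ : Q * Qi = 1) (hM : M * Q = Q * comp c) :
    Good (X ^ (n + 1) - ∑ i, C (c i) * X ^ (i : ℕ)) (Matrix.toLin b b M) := by
  let e : V ≃ₗ[F] V := LinearEquiv.ofLinearMap (Matrix.toLin b b Q) (Matrix.toLin b b Qi)
    (by rw [← Matrix.toLin_mul, hQ, Matrix.toLin_one])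
    (by rw [← Matrix.toLin_mul, mul_eq_one_comm.1 hQ, Matrix.toLin_one])
  have key : ∀ j, Matrix.toLin b b M ((b.map e) j) = ∑ i, comp c i j • (b.map e) i := fun j => by
    show Matrix.toLin b b M (Matrix.toLin b b Q (b j)) = _
    rw [← LinearMap.comp_apply, ← Matrix.toLin_mul, hM, Matrix.toLin_mul b b b,
      LinearMap.comp_apply, Matrix.toLin_self, map_sum]
    exact Finset.sum_congr rfl fun i _ => by rw [map_smul]; rfl
  refine good_of_chain (b.map e) (fun i => ?_) ?_
  · rw [key, Finset.sum_eq_single i.succ]
    · simp [comp, (Fin.castSucc_lt_last i).ne]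
    · intro k _ hk
      have : (k : ℕ) ≠ i + 1 := fun h => hk (Fin.ext (by simpa using h))
      simp [comp, (Fin.castSucc_lt_last i).ne, this]
    · exact fun h => absurd (Finset.mem_univ _) h
  · rw [key]
    simp [comp]

end chain

section table

variable {n : ℕ}

/-- The matrix with the given code. -/
def toM (F : Type u) [Field F] (p m A : ℕ) : Matrix (Fin m) (Fin m) F :=
  Matrix.of fun i j => (ent p m A i j : F)

variable {p : ℕ}

lemma cast_mod (hp : (p : F) = 0) (a : ℕ) : ((a % p : ℕ) : F) = a := by
  conv_rhs => rw [← Nat.mod_add_div a p]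
  simp [hp]

lemma toM_mul {m A B D : ℕ} (hp : (p : F) = 0) (h : mulOK p m A B D = true) :
    toM F p m A * toM F p m B = toM F p m D := by
  ext i j
  simp only [mulOK, List.all_eq_true, List.mem_range, beq_iff_eq] at h
  have := congrArg (fun z : ℕ => (z : F)) (h i i.2 j j.2)
  simp only [cast_mod hp] at this
  rw [Matrix.mul_apply]
  simp only [toM, Matrix.of_apply]
  rw [← this]
  have e : ((List.range m).map fun k => ent p m A i k * ent p m B k j).sum =
      ∑ k : Fin m, ent p m A i k * ent p m B k j :=
    (Finset.sum_range fun k => ent p m A i k * ent p m B k j)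
  rw [e]
  simp

/-- A certificate gives a quotient of two good operators. -/
theorem gpair_of_ok [CharP F p] (b : Basis (Fin (n + 1)) F V) {S : Module.End F V}
    (hS : LinearMap.det S = 1) {s one cc : ℕ} (hs : LinearMap.toMatrix b b S = toM F p (n + 1) s)
    {c : Fin (n + 1) → F} (hone : toM F p (n + 1) one = 1) (hcc : toM F p (n + 1) cc = comp c)
    {w : Wit} (hw : w.ok p (n + 1) one cc s = true) :
    GPair (X ^ (n + 1) - ∑ i, C (c i) * X ^ (i : ℕ)) S := by
  have hp : (p : F) = 0 := CharP.cast_eq_zero F p
  have hdet : (LinearMap.toMatrix b b S).det = 1 := by rw [LinearMap.det_toMatrix, hS]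
  cases w with
  | ker v =>
    simp only [Wit.ok, Bool.and_eq_true, List.any_eq_true, List.all_eq_true, List.mem_range,
      bne_iff_ne, ne_eq, beq_iff_eq] at hw
    obtain ⟨⟨i, hi, hv⟩, hker⟩ := hw
    refine absurd (Matrix.exists_mulVec_eq_zero_iff.1
      ⟨fun k : Fin (n + 1) => ((v / p ^ (k : ℕ) % p : ℕ) : F), fun h => ?_, ?_⟩)
      (by rw [hdet]; exact one_ne_zero)
    · have h1 : ((v / p ^ i % p : ℕ) : F) = 0 := congrFun h ⟨i, hi⟩
      rw [CharP.cast_eq_zero_iff F p, Nat.dvd_iff_mod_eq_zero, Nat.mod_mod] at h1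
      exact hv h1
    · funext k
      have h1 := congrArg (fun z : ℕ => (z : F)) (hker k k.2)
      simp only [cast_mod hp, Nat.cast_zero] at h1
      rw [hs, Matrix.mulVec, Pi.zero_apply, ← h1]
      have e : ((List.range (n + 1)).map fun x => ent p (n + 1) s k x * (v / p ^ x % p)).sum =
          ∑ x : Fin (n + 1), ent p (n + 1) s k x * (v / p ^ (x : ℕ) % p) :=
        (Finset.sum_range fun x => ent p (n + 1) s k x * (v / p ^ x % p))
      rw [e]
      simp [dotProduct, toM]
  | bad =>
    simp only [Wit.ok, Bool.and_eq_true, beq_iff_eq, bne_iff_ne, ne_eq] at hw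
    obtain ⟨hn, hd⟩ := hw
    obtain rfl : n = 2 := by omega
    have h1 : ((det3 p s : ℕ) : F) = 1 := by
      rw [← hdet, hs, Matrix.det_fin_three]
      rcases Nat.eq_zero_or_pos p with rfl | hp0
      · simp [det3, toM, ent] at *
      · simp only [det3, toM, Matrix.of_apply, Nat.cast_add, Nat.cast_mul, Nat.cast_sub hp0, hp,
          Nat.cast_one, Fin.val_zero, Fin.val_one, Fin.val_two]
        ring
    refine absurd ?_ hd
    rw [← Nat.cast_one, CharP.natCast_eq_natCast F p] at h1
    rcases Nat.lt_or_ge 1 p with hp1 | hp1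
    · rw [h1, Nat.one_mod_eq_one.2 (by omega)]
    · rcases CharP.char_is_prime_or_zero F p with h | h
      · exact absurd h.two_le (by omega)
      · subst h; simpa using h1
  | pair G L Q Qi P Pi =>
    simp only [Wit.ok, Bool.and_eq_true] at hw
    obtain ⟨⟨⟨⟨h1, h2⟩, h3⟩, h4⟩, h5⟩ := hw
    have conj : ∀ A B : ℕ, ((List.range (n + 1)).all fun i => (List.range (n + 1)).all fun j =>
        ((List.range (n + 1)).map fun k => ent p (n + 1) A i k * ent p (n + 1) B k j).sum % p ==
          ((((List.range (n + 1)).map fun i => (List.range (n + 1)).map fun j =>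
            ((List.range (n + 1)).map fun k =>
              ent p (n + 1) B i k * ent p (n + 1) cc k j).sum % p)).getD i []).getD j p) = true →
        toM F p (n + 1) A * toM F p (n + 1) B = toM F p (n + 1) B * comp c := by
      intro A B h
      ext i j
      simp only [List.all_eq_true, List.mem_range, beq_iff_eq] at h
      have := congrArg (fun z : ℕ => (z : F)) (h i i.2 j j.2)
      simp only [List.getD_eq_getElem?_getD, List.getElem?_map, List.getElem?_range i.2,
        List.getElem?_range j.2, Option.map_some, Option.getD_some, cast_mod hp] at this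
      rw [← hcc, Matrix.mul_apply, Matrix.mul_apply]
      simp only [toM, Matrix.of_apply]
      have e : ∀ A B : ℕ, ((List.range (n + 1)).map fun k =>
          ent p (n + 1) A i k * ent p (n + 1) B k j).sum =
            ∑ k : Fin (n + 1), ent p (n + 1) A i k * ent p (n + 1) B k j := fun A B =>
        (Finset.sum_range fun k => ent p (n + 1) A i k * ent p (n + 1) B k j)
      rw [e, e] at this
      simpa using this
    refine ⟨Matrix.toLin b b (toM F p (n + 1) L), Matrix.toLin b b (toM F p (n + 1) G),
      good_of_comp b (by rw [toM_mul hp h2, hone]) (conj _ _ h5),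
      good_of_comp b (by rw [toM_mul hp h1, hone]) (conj _ _ h4), ?_⟩
    rw [← toM_mul hp h3, ← hs, Matrix.toLin_mul b b b, Matrix.toLin_toMatrix]
    rfl

end table

end Cfsg.Agent.H87.Ore
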