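import Mathlib

/-!
Cyclic operators with a prescribed annihilating polynomial and commutators in `SL(V)`.
-/

set_option autoImplicit false

namespace Cfsg.Agent.H87.Ore

open Polynomial Module

variable {F V : Type*} [Field F] [AddCommGroup V] [Module F V]

/-- `L` is cyclic and annihilated by `g`. -/
def Good (g : F[X]) (L : Module.End F V) : Prop :=
  aeval L g = 0 ∧ ∃ u : V, ∀ x, ∃ p : F[X], aeval L p u = x

/-- `S` is the quotient of two good operators. -/
def GPair (g : F[X]) (S : Module.End F V) : Prop :=
  ∃ L G : Module.End F V, Good g L ∧ Good g G ∧ L = S * G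

/-- `S` is a commutator of two operators of determinant one. -/
def IsComm (S : Module.End F V) : Prop :=
  ∃ A B : Module.End F V, LinearMap.det A = 1 ∧ LinearMap.det B = 1 ∧ A * B = S * (B * A)

variable {g : F[X]} {L G : Module.End F V} [FiniteDimensional F V]

/-- Evaluation at a generator, on polynomials of small degree. -/
noncomputable def evalLow (L : Module.End F V) (u : V) :
    Polynomial.degreeLT F (finrank F V) →ₗ[F] V :=
  ((aeval L).toLinearMap.flip u).comp (Submodule.subtype _)

lemma evalLow_apply (L : Module.End F V) (u : V) (p : Polynomial.degreeLT F (finrank F V)) :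
    evalLow L u p = aeval L (p : F[X]) u := rfl

omit [FiniteDimensional F V] in
lemma aeval_mod (hg : g.Monic) (h : aeval L g = 0) (p : F[X]) :
    aeval L (p %ₘ g) = aeval L p := by
  conv_rhs => rw [← Polynomial.modByMonic_add_div p g]
  rw [map_add, map_mul, h, zero_mul, add_zero]

omit [FiniteDimensional F V] in
lemma mod_mem (hg : g.Monic) (hd : g.natDegree = finrank F V) (p : F[X]) :
    p %ₘ g ∈ Polynomial.degreeLT F (finrank F V) := by
  rw [Polynomial.mem_degreeLT, ← hd, ← Polynomial.degree_eq_natDegree hg.ne_zero]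
  exact Polynomial.degree_modByMonic_lt _ hg

lemma evalLow_bijective (hg : g.Monic) (hd : g.natDegree = finrank F V) (h : aeval L g = 0)
    {u : V} (hu : ∀ x, ∃ p : F[X], aeval L p u = x) : Function.Bijective (evalLow L u) := by
  have hs : Function.Surjective (evalLow L u) := fun x => by
    obtain ⟨p, hp⟩ := hu x
    exact ⟨⟨_, mod_mem hg hd p⟩, by rw [evalLow_apply, aeval_mod hg h, hp]⟩
  have he := (Polynomial.degreeLTEquiv F (finrank F V))
  have : FiniteDimensional F (Polynomial.degreeLT F (finrank F V)) :=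
    Module.Finite.equiv he.symm
  have hfr : finrank F (Polynomial.degreeLT F (finrank F V)) = finrank F V := by
    rw [he.finrank_eq, Module.finrank_fintype_fun_eq_card, Fintype.card_fin]
  exact ⟨(LinearMap.injective_iff_surjective_of_finrank_eq_finrank hfr).2 hs, hs⟩

lemma dvd_of_aeval_eq_zero (hg : g.Monic) (hd : g.natDegree = finrank F V) (h : aeval L g = 0)
    {u : V} (hu : ∀ x, ∃ p : F[X], aeval L p u = x) {p : F[X]} (hp : aeval L p u = 0) :
    g ∣ p := by
  refine (Polynomial.modByMonic_eq_zero_iff_dvd hg).1 ?_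
  have := (evalLow_bijective hg hd h hu).1 (a₁ := ⟨_, mod_mem hg hd p⟩) (a₂ := 0)
    (by rw [evalLow_apply, map_zero, aeval_mod hg h, hp])
  exact congrArg Subtype.val this

/-- Two good operators are conjugate. -/
theorem Good.exists_conj (hg : g.Monic) (hd : g.natDegree = finrank F V) (hL : Good g L)
    (hG : Good g G) : ∃ W : V ≃ₗ[F] V, G * (W : Module.End F V) = (W : Module.End F V) * L := by
  obtain ⟨hL0, u, hu⟩ := hL
  obtain ⟨hG0, u', hu'⟩ := hG
  let e := LinearEquiv.ofBijective _ (evalLow_bijective hg hd hL0 hu)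
  let e' := LinearEquiv.ofBijective _ (evalLow_bijective hg hd hG0 hu')
  have key : ∀ p : F[X], (e.symm.trans e') (aeval L p u) = aeval G p u' := fun p => by
    have h1 : e ⟨_, mod_mem hg hd p⟩ = aeval L p u := by
      show aeval L (p %ₘ g) u = _
      rw [aeval_mod hg hL0]
    rw [LinearEquiv.trans_apply, ← h1, e.symm_apply_apply]
    show aeval G (p %ₘ g) u' = _
    rw [aeval_mod hg hG0]
  refine ⟨e.symm.trans e', LinearMap.ext fun x => ?_⟩
  obtain ⟨p, rfl⟩ := hu x
  show G ((e.symm.trans e') (aeval L p u)) = (e.symm.trans e') (L (aeval L p u))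
  have e1 : L (aeval L p u) = aeval L (X * p) u := by
    rw [map_mul, aeval_X, Module.End.mul_apply]
  rw [key, e1, key, map_mul, aeval_X, Module.End.mul_apply]

lemma Good.charpoly (hg : g.Monic) (hd : g.natDegree = finrank F V) (hL : Good g L) :
    LinearMap.charpoly L = g := by
  obtain ⟨hL0, u, hu⟩ := hL
  refine Polynomial.eq_of_monic_of_dvd_of_natDegree_le hg (LinearMap.charpoly_monic L)
    (dvd_of_aeval_eq_zero hg hd hL0 hu ?_) ?_
  · rw [LinearMap.aeval_self_charpoly]; rfl
  · rw [LinearMap.charpoly_natDegree, hd]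

lemma Good.det (hg : g.Monic) (hd : g.natDegree = finrank F V) (hL : Good g L) :
    LinearMap.det L = (-1) ^ g.natDegree * g.eval 0 := by
  classical
  let b := Module.finBasis F V
  rw [← LinearMap.det_toMatrix b, Matrix.det_eq_sign_charpoly_coeff, LinearMap.charpoly_toMatrix,
    hL.charpoly hg hd, Fintype.card_fin, hd, Polynomial.coeff_zero_eq_eval_zero]

/-- Every value is a determinant in the commutant. -/
theorem Good.exists_commute_det (hg : g.Monic) (hd : g.natDegree = finrank F V) (hL : Good g L)
    {lam : F} {h : F[X]} (hfac : g = (X - C lam) * h) (hlam : h.eval lam ≠ 0) (a : F) :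
    ∃ Y : Module.End F V, Y * L = L * Y ∧ LinearMap.det Y = a := by
  obtain ⟨hL0, u, hu⟩ := hL
  have hb := evalLow_bijective hg hd hL0 hu
  let ξ : Module.Dual F V := (Polynomial.leval lam).comp
    ((Submodule.subtype _).comp (LinearEquiv.ofBijective _ hb).symm.toLinearMap)
  have hgl : g.eval lam = 0 := by rw [hfac]; simp
  have hξ : ∀ p : F[X], ξ (aeval L p u) = p.eval lam := fun p => by
    have h1 : (LinearEquiv.ofBijective _ hb) ⟨_, mod_mem hg hd p⟩ = aeval L p u := by
      show aeval L (p %ₘ g) u = _
      rw [aeval_mod hg hL0]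
    show ((LinearEquiv.ofBijective _ hb).symm (aeval L p u) : F[X]).eval lam = _
    rw [← h1, LinearEquiv.symm_apply_apply]
    conv_rhs => rw [← Polynomial.modByMonic_add_div p g]
    simp [hgl]
  set h' := C (h.eval lam)⁻¹ * h with hh'
  set e₀ := aeval L h' u
  refine ⟨LinearMap.transvection ξ ((a - 1) • e₀), ?_, ?_⟩
  · refine LinearMap.ext fun x => ?_
    obtain ⟨p, rfl⟩ := hu x
    have hLe : L e₀ = lam • e₀ := by
      have hz : aeval L ((X - C lam) * h') = 0 := by
        rw [show (X - C lam) * h' = g * C (h.eval lam)⁻¹ by rw [hh', hfac]; ring, map_mul, hL0,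
          zero_mul]
      have := LinearMap.congr_fun hz u
      simp only [map_mul, map_sub, aeval_X, aeval_C, Module.End.mul_apply, LinearMap.sub_apply,
        Module.algebraMap_end_apply, LinearMap.zero_apply] at this
      exact sub_eq_zero.1 this
    have e1 : L (aeval L p u) = aeval L (X * p) u := by
      rw [map_mul, aeval_X, Module.End.mul_apply]
    rw [Module.End.mul_apply, Module.End.mul_apply, LinearMap.transvection.apply,
      LinearMap.transvection.apply, e1, hξ, hξ, map_add, map_smul, map_smul, hLe, ← e1,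
      eval_mul, eval_X]
    module
  · rw [LinearMap.transvection.det, map_smul, hξ]
    simp [hh', hlam]

/-- A quotient of two good operators is a commutator. -/
theorem isComm_of_pair {S : Module.End F V} (hg : g.Monic) (hd : g.natDegree = finrank F V)
    (hdet : (-1) ^ g.natDegree * g.eval 0 = 1)
    (hfix : (∀ a : F, a ≠ 0 → a = 1) ∨ ∃ lam h, g = (X - C lam) * h ∧ h.eval lam ≠ 0)
    (hS : GPair g S) : IsComm S := by
  obtain ⟨L, G, hL, hG, hLG⟩ := hS
  obtain ⟨W, hW⟩ := hL.exists_conj hg hd hG
  have hW0 : LinearMap.det (W : Module.End F V) ≠ 0 := W.isUnit_det'.ne_zero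
  obtain ⟨Y, hY, hYd⟩ : ∃ Y : Module.End F V, Y * L = L * Y ∧
      LinearMap.det (W : Module.End F V) * LinearMap.det Y = 1 := by
    rcases hfix with h | ⟨lam, h, hfac, hlam⟩
    · exact ⟨1, by simp, by rw [h _ hW0]; simp⟩
    · obtain ⟨Y, h1, h2⟩ := hL.exists_commute_det hg hd hfac hlam
        (LinearMap.det (W : Module.End F V))⁻¹
      exact ⟨Y, h1, by rw [h2, mul_inv_cancel₀ hW0]⟩
  refine ⟨L, (W : Module.End F V) * Y, by rw [hL.det hg hd, hdet], by rw [map_mul, hYd], ?_⟩
  calc L * ((W : Module.End F V) * Y) = S * (G * (W : Module.End F V) * Y) := by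
        rw [hLG]; simp only [mul_assoc]
    _ = _ := by rw [hW, mul_assoc, ← hY, mul_assoc]

end Cfsg.Agent.H87.Ore
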