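import Cfsg.Agent.H87.Ore.Cover

/-!
The choice of a vector and a functional for one reduction step.
-/

set_option autoImplicit false

namespace Cfsg.Agent.H87.Ore

open Module

variable {F V : Type*} [Field F] [AddCommGroup V] [Module F V]

/-- The reduced operator on the kernel of `φ`. -/
def redMap (S : Module.End F V) (φ : Module.Dual F V) (v : V) (hSv : φ (S v) = 1) :
    Module.End F (LinearMap.ker φ) :=
  LinearMap.codRestrict _ ((S - (φ.comp S).smulRight (S v)).comp (LinearMap.ker φ).subtype)
    fun h => by simp [hSv]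

@[simp] lemma redMap_apply (S : Module.End F V) (φ : Module.Dual F V) (v : V)
    (hSv : φ (S v) = 1) (h : LinearMap.ker φ) :
    (redMap S φ v hSv h : V) = S (h : V) - φ (S (h : V)) • S v := rfl

/-- Two eligible functionals cannot both give a scalar other than one. -/
lemma not_both_scalar [FiniteDimensional F V] {S : Module.End F V} {v : V}
    (hm : 3 ≤ finrank F V) (hne : ∀ a : F, S v ≠ a • v) {φ ψ : Module.Dual F V} (hφψ : φ ≠ ψ)
    (hφv : φ v = 1) (hψv : ψ v = 1) (hφS : φ (S v) = 1) (hψS : ψ (S v) = 1) {l l' : F}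
    (hl0 : l ≠ 0) (hφ : ∀ h, φ h = 0 → S h - φ (S h) • S v = l • h)
    (hψ : ∀ h, ψ h = 0 → S h - ψ (S h) • S v = l' • h) : False := by
  -- the two values agree
  obtain ⟨h, hh, hh0⟩ : ∃ h, (φ h = 0 ∧ ψ h = 0) ∧ h ≠ 0 := by
    by_contra hcon
    push Not at hcon
    have h1 := LinearMap.finrank_range_add_finrank_ker (φ.prod ψ)
    have h2 : LinearMap.ker (φ.prod ψ) = ⊥ := by
      rw [eq_bot_iff]
      intro x hx
      rw [LinearMap.mem_ker] at hx
      exact (Submodule.mem_bot F).2 (hcon x ⟨congrArg Prod.fst hx, congrArg Prod.snd hx⟩)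
    have h3 : finrank F (LinearMap.range (φ.prod ψ)) ≤ 2 :=
      (Submodule.finrank_le _).trans (le_of_eq (by simp))
    rw [h2, finrank_bot] at h1
    omega
  have hll : l = l' := by
    have e : l • h - l' • h = (ψ (S h) - φ (S h)) • S v := by
      rw [← hφ h hh.1, ← hψ h hh.2, sub_smul]; abel
    have := congrArg φ e
    rw [map_sub, map_smul, map_smul, map_smul, hh.1, hφS] at this
    simp at this
    rw [← this, zero_smul, sub_eq_zero] at e
    exact smul_left_injective F hh0 e
  subst hll
  -- a vector on which they differ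
  obtain ⟨x, hx⟩ : ∃ x, φ x ≠ ψ x := by
    by_contra hcon
    push Not at hcon
    exact hφψ (LinearMap.ext hcon)
  set y := x - φ x • v with hy
  have hy1 : φ y = 0 := by simp [hy, hφv]
  have hy2 : ψ y ≠ 0 := by
    simp [hy, hψv]; exact sub_ne_zero.2 (Ne.symm hx)
  set z := y - ψ y • v with hz
  have hz2 : ψ z = 0 := by simp [hz, hψv]
  -- so `(S - l) v` is a multiple of `S v`
  have e1 := hφ y hy1
  have e2 := hψ z hz2
  have e3 : ψ y • (S v - l • v) = (φ (S y) - ψ (S z)) • S v := by
    have hyz : ψ y • v = y - z := by rw [hz]; abel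
    rw [smul_sub, ← map_smul, smul_comm, hyz, map_sub, smul_sub, sub_smul, ← e1, ← e2]
    abel
  set μ := φ (S y) - ψ (S z)
  by_cases hμ : ψ y - μ = 0
  · have : (ψ y * l) • v = 0 := by
      rw [smul_sub, ← sub_eq_zero.1 hμ] at e3
      rw [mul_smul]
      exact sub_eq_self.1 e3
    rw [smul_eq_zero] at this
    rcases this with h' | h'
    · exact mul_ne_zero hy2 hl0 h'
    · exact one_ne_zero (show (1 : F) = 0 by rw [← hφv, h', map_zero])
  · refine hne ((ψ y - μ)⁻¹ * (ψ y * l)) ?_
    rw [mul_smul, mul_smul, eq_inv_smul_iff₀ hμ, sub_smul, ← e3, smul_sub]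
    abel

variable [Fintype F] [FiniteDimensional F V]

/-- The rank of `T` restricted and projected. -/
lemma rank_red {T : Module.End F V} {φ : Module.Dual F V} {v u : V} (hφv : φ v = 1)
    (hu : φ u = 1) :
    finrank F (LinearMap.range T) ≤ finrank F (Submodule.map
      ((LinearMap.id - φ.smulRight u).comp T) (LinearMap.ker φ)) + 2 ∧
    (u ∉ LinearMap.range T → finrank F (LinearMap.range T) ≤ finrank F (Submodule.map
      ((LinearMap.id - φ.smulRight u).comp T) (LinearMap.ker φ)) + 1) ∧
    (u ∉ LinearMap.range T → (∃ k, T k = 0 ∧ φ k ≠ 0) → finrank F (LinearMap.range T) ≤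
      finrank F (Submodule.map ((LinearMap.id - φ.smulRight u).comp T) (LinearMap.ker φ))) := by
  set π := LinearMap.id - φ.smulRight u
  set A := Submodule.map T (LinearMap.ker φ) with hA
  rw [Submodule.map_comp, ← hA]
  have hker : LinearMap.ker π ≤ Submodule.span F {u} := by
    intro x hx
    rw [LinearMap.mem_ker] at hx
    simp [π, sub_eq_zero] at hx
    rw [hx]
    exact Submodule.smul_mem _ _ (Submodule.mem_span_singleton_self u)
  have hπA : finrank F (Submodule.map π A) + finrank F (A ⊓ LinearMap.ker π : Submodule F V) =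
      finrank F A := by
    have h := LinearMap.finrank_range_add_finrank_ker (π.comp A.subtype)
    rw [LinearMap.range_comp, Submodule.range_subtype] at h
    have e : finrank F (LinearMap.ker (π.comp A.subtype)) =
        finrank F (A ⊓ LinearMap.ker π : Submodule F V) := by
      rw [LinearMap.ker_comp, ← Submodule.finrank_map_subtype_eq, Submodule.map_comap_subtype]
    omega
  have hAT : A ≤ LinearMap.range T := LinearMap.map_le_range
  have hT : LinearMap.range T ≤ A ⊔ Submodule.span F {T v} := by
    rintro _ ⟨x, rfl⟩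
    rw [show x = (x - φ x • v) + φ x • v by abel, map_add, map_smul]
    refine Submodule.add_mem_sup ⟨_, ?_, rfl⟩
      (Submodule.smul_mem _ _ (Submodule.mem_span_singleton_self _))
    simp [hφv]
  have h1 : finrank F (A ⊓ LinearMap.ker π : Submodule F V) ≤ 1 :=
    ((Submodule.finrank_mono inf_le_right).trans (Submodule.finrank_mono hker)).trans
      ((finrank_span_le_card (R := F) ({u} : Set V)).trans (by simp))
  have h2 : finrank F (LinearMap.range T) ≤ finrank F A + 1 := by
    refine (Submodule.finrank_mono hT).trans ((Submodule.finrank_add_le_finrank_add_finrank _ _).trans ?_)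
    exact Nat.add_le_add_left ((finrank_span_le_card (R := F) ({T v} : Set V)).trans (by simp)) _
  have h3 : u ∉ LinearMap.range T → A ⊓ LinearMap.ker π = ⊥ := fun hu' => by
    rw [eq_bot_iff]
    intro x hx
    obtain ⟨hxA, hxπ⟩ := Submodule.mem_inf.1 hx
    obtain ⟨a, rfl⟩ := Submodule.mem_span_singleton.1 (hker hxπ)
    rw [Submodule.mem_bot]
    by_contra h0
    have ha : a ≠ 0 := fun h => h0 (by rw [h, zero_smul])
    exact hu' (by simpa [smul_smul, ha] using Submodule.smul_mem _ a⁻¹ (hAT hxA))
  refine ⟨by omega, fun h => ?_, fun h ⟨k, hk, hφk⟩ => ?_⟩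
  · rw [h3 h, finrank_bot] at hπA; omega
  · rw [h3 h, finrank_bot] at hπA
    have : LinearMap.range T ≤ A := by
      rintro _ ⟨x, rfl⟩
      refine ⟨x - (φ x * (φ k)⁻¹) • k, ?_, by simp [hk]⟩
      simp [mul_assoc, hφk]
    have := Submodule.finrank_mono this
    omega

/-- The choice for a reduction step. -/
theorem exists_choice {S : Module.End F V} {c : V} {b : Module.Dual F V} {full : Prop}
    (hm : 3 ≤ finrank F V) (hm3 : Fintype.card F = 3 → 4 ≤ finrank F V) (hinj : Function.Injective S)
    (hScal : ∀ l : F, S ≠ l • 1)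
    (hfull : full → 4 ≤ finrank F V ∧ (Fintype.card F ≤ 3 → 5 ≤ finrank F V) ∧
      (Fintype.card F = 2 → 6 ≤ finrank F V))
    (hr : 2 ≤ finrank F (LinearMap.range (S - 1))) (hc : c ≠ 0) (hb : b ≠ 0) :
    ∃ (v : V) (φ : Module.Dual F V) (hSv : φ (S v) = 1), φ v = 1 ∧ b v ≠ 0 ∧ φ c ≠ 0 ∧
      (S - 1) v ≠ 0 ∧ (∀ l : F, redMap S φ v hSv = l • 1 → l = 1) ∧
      (full → (∃ x, φ x = 0 ∧ φ (S x) ≠ 0) ∧
        2 ≤ finrank F (LinearMap.range (redMap S φ v hSv - 1))) := by
  classical
  set q := Fintype.card F with hq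
  have hq2 : 2 ≤ q := Fintype.one_lt_card
  set T := S - 1 with hT
  set I := LinearMap.range T with hI
  set K := LinearMap.ker T with hK
  set P := Submodule.comap T (Submodule.span F {c}) with hP
  have hPtop : P ≠ ⊤ := fun h => by
    have h1 : I ≤ Submodule.span F {c} := by
      rintro _ ⟨x, rfl⟩
      exact Submodule.mem_comap.1 (show x ∈ P by rw [h]; trivial)
    have := (Submodule.finrank_mono h1).trans ((finrank_span_le_card (R := F) ({c} : Set V)).trans
      (by simp : _ ≤ 1))
    omega
  have hbtop : LinearMap.ker b ≠ ⊤ := fun h => hb (LinearMap.ker_eq_top.1 h)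
  have hKfin : finrank F I + finrank F K = finrank F V := LinearMap.finrank_range_add_finrank_ker T
  have hPfin : finrank F P ≤ finrank F K + 1 := by
    have h1 := LinearMap.finrank_range_add_finrank_ker (T.comp P.subtype)
    have h2 : LinearMap.range (T.comp P.subtype) ≤ Submodule.span F {c} := by
      rintro _ ⟨x, rfl⟩; exact x.2
    have h3 := (Submodule.finrank_mono h2).trans ((finrank_span_le_card (R := F) ({c} : Set V)).trans
      (by simp : _ ≤ 1))
    have h4 : finrank F (LinearMap.ker (T.comp P.subtype)) ≤ finrank F K :=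
      LinearMap.finrank_le_finrank_of_injective
        (f := LinearMap.codRestrict K (P.subtype.comp (LinearMap.ker (T.comp P.subtype)).subtype)
          fun x => LinearMap.mem_ker.2 (LinearMap.mem_ker.1 x.2))
        (fun x y hxy => Subtype.ext (Subtype.ext (congrArg (fun z : K => (z : V)) hxy)))
    omega
  -- the rule for the vector
  obtain ⟨v, hvb, hvP, hvI, hveig, hU⟩ : ∃ v, b v ≠ 0 ∧ v ∉ P ∧
      (full → finrank F I ≤ 3 → v ∉ I) ∧ (∀ a : F, S v ≠ a • v) ∧
      (full → q ≤ 3 → finrank F I = 2 → ∃ k ∈ K, (k = c ∨ k ∉ I ⊔ Submodule.span F {c}) ∧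
        v ∉ I ⊔ Submodule.span F {c} ⊔ Submodule.span F {k}) := by
    have heigI : ∀ x : V, x ∉ P → ∀ a : F, S x = a • x → x ∈ I := fun x hx a ha => by
      have h1 : T x = (a - 1) • x := by simp [hT, ha, sub_smul]
      have ha1 : a - 1 ≠ 0 := fun h => hx (by
        rw [hP, Submodule.mem_comap, h1, h, zero_smul]; exact Submodule.zero_mem _)
      exact ⟨(a - 1)⁻¹ • x, by rw [map_smul, h1, smul_smul, inv_mul_cancel₀ ha1, one_smul]⟩
    by_cases hC : full ∧ q ≤ 3 ∧ finrank F I = 2
    · obtain ⟨hf, hq3, hr2⟩ := hC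
      have hm5 := (hfull hf).2.1 hq3
      obtain ⟨k, hkK, hk⟩ : ∃ k ∈ K, k = c ∨ k ∉ I ⊔ Submodule.span F {c} := by
        by_cases hcK : c ∈ K
        · exact ⟨c, hcK, Or.inl rfl⟩
        by_contra hcon
        push Not at hcon
        have hle : K ≤ I ⊔ Submodule.span F {c} := fun k hk => (hcon k hk).2
        have hne : K ≠ I ⊔ Submodule.span F {c} := fun h =>
          hcK (h ▸ Submodule.mem_sup_right (Submodule.mem_span_singleton_self c))
        have h1 := Submodule.finrank_lt_finrank_of_lt (lt_of_le_of_ne hle hne)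
        have h2 := (Submodule.finrank_add_le_finrank_add_finrank I (Submodule.span F {c})).trans
          (Nat.add_le_add_left ((finrank_span_le_card (R := F) ({c} : Set V)).trans (by simp : _ ≤ 1)) _)
        omega
      set U := I ⊔ Submodule.span F {c} ⊔ Submodule.span F {k} with hU
      have hUfin : finrank F U ≤ 4 := by
        have h1 := Submodule.finrank_add_le_finrank_add_finrank
          (I ⊔ Submodule.span F {c}) (Submodule.span F {k})
        have h2 := Submodule.finrank_add_le_finrank_add_finrank I (Submodule.span F {c})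
        have h3 := (finrank_span_le_card (R := F) ({c} : Set V)).trans (by simp : _ ≤ 1)
        have h4 := (finrank_span_le_card (R := F) ({k} : Set V)).trans (by simp : _ ≤ 1)
        rw [← hU] at h1
        omega
      have hUtop : U ≠ ⊤ := fun h => by rw [h, finrank_top] at hUfin; omega
      obtain ⟨v, h1, h2, h3⟩ : ∃ v, v ∉ LinearMap.ker b ∧ v ∉ P ∧ v ∉ U := by
        rcases eq_or_ne q 2 with hq' | hq'
        · have := (hfull hf).2.2 hq'
          exact exists_avoid_three _ _ _ hbtop hPtop (by omega)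
        · obtain ⟨v, hv⟩ := exists_avoid [LinearMap.ker b, P, U]
            (by simp [hbtop, hPtop, hUtop]) (by simp; omega) (by omega)
          simp at hv
          exact ⟨v, by simpa using hv.1, hv.2.1, hv.2.2⟩
      have h3I : v ∉ I := fun h => h3 (Submodule.mem_sup_left (Submodule.mem_sup_left h))
      exact ⟨v, by simpa using h1, h2, fun _ _ => h3I, fun a ha => h3I (heigI v h2 a ha),
        fun _ _ _ => ⟨k, hkK, hk, h3⟩⟩
    · by_cases hIt : I = ⊤
      · have hr' : ¬ (full ∧ finrank F I ≤ 3) := fun h => by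
          have := h.2; rw [hIt, finrank_top] at this; have := (hfull h.1).1; omega
        obtain ⟨v, h1, h2, h3⟩ : ∃ v, v ∉ LinearMap.ker b ∧ v ∉ P ∧ ∀ a : F, S v ≠ a • v := by
          by_cases heig : ∀ x : V, x ∉ P → ∀ a : F, S x ≠ a • x
          · obtain ⟨v, hv⟩ := exists_avoid [LinearMap.ker b, P]
              (by simp [hbtop, hPtop]) (by simp; omega) (by omega)
            simp at hv
            exact ⟨v, by simpa using hv.1, hv.2, heig v hv.2⟩
          push Not at heig
          obtain ⟨x₀, hx₀, l₀, hl₀⟩ := heig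
          have hq3 : 3 ≤ q := by
            by_contra hlt
            have h2 : q = 2 := by omega
            have hu : ∀ a : F, a = 0 ∨ a = 1 := by
              intro a
              by_contra hcon
              push Not at hcon
              have : 2 < q := by
                have := Finset.card_le_card (Finset.subset_univ ({0, 1, a} : Finset F))
                rw [Finset.card_insert_of_notMem (by simp [hcon.1.symm]),
                  Finset.card_pair hcon.2.symm, Finset.card_univ] at this
                omega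
              omega
            rcases hu l₀ with rfl | rfl
            · rw [zero_smul] at hl₀
              exact hx₀ (by rw [hinj (hl₀.trans (map_zero S).symm)]; exact P.zero_mem)
            · exact hx₀ (by rw [hP, Submodule.mem_comap]; simp [hT, hl₀])
          have hx0 : x₀ ≠ 0 := fun h => hx₀ (h ▸ P.zero_mem)
          set E := LinearMap.ker (S - l₀ • 1) with hE
          by_cases hEtop : E = ⊤
          · -- `S` is scalar
            exfalso
            exact hScal l₀ (sub_eq_zero.1 (LinearMap.ker_eq_top.1 hEtop))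
          set R := LinearMap.range (S - l₀ • 1) with hR
          have hRtop : R ≠ ⊤ := fun h => hx0 (by
            have := LinearMap.ker_eq_bot_iff_range_eq_top.2 h
            have hmem : x₀ ∈ LinearMap.ker (S - l₀ • 1) := by simp [hl₀]
            rw [this] at hmem
            simpa using hmem)
          have hother : ∀ x : V, x ∉ E → ∀ a : F, S x = a • x → x ∈ R := fun x hx a ha => by
            have hal : a - l₀ ≠ 0 := fun h => hx (by simp [hE, ha, sub_eq_zero.1 h])
            refine ⟨(a - l₀)⁻¹ • x, ?_⟩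
            simp [ha, ← sub_smul, smul_smul, inv_mul_cancel₀ hal]
          by_cases hq4 : q = 3
          · obtain ⟨v, hv⟩ := exists_avoid [LinearMap.ker b, P, E]
              (by simp [hbtop, hPtop, hEtop]) (by simp; omega) (by omega)
            simp at hv
            refine ⟨v, by simpa using hv.1, hv.2.1, fun a ha => ?_⟩
            have hv0 : v ≠ 0 := fun h => hv.1 (by simp [h])
            have hl1 : l₀ ≠ 1 := fun h => hx₀ (by simp [hP, hT, hl₀, h])
            have hl00 : l₀ ≠ 0 := fun h => hx0 (hinj (by rw [hl₀, h, zero_smul, map_zero]))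
            have ha1 : a ≠ 1 := fun h => hv.2.1 (by simp [hP, hT, ha, h])
            have ha0 : a ≠ 0 := fun h => hv0 (hinj (by rw [ha, h, zero_smul, map_zero]))
            have : a = l₀ := by
              by_contra hne
              have := Finset.card_le_card (Finset.subset_univ ({0, 1, a, l₀} : Finset F))
              rw [Finset.card_univ, Finset.card_insert_of_notMem (by simp [ha0.symm, hl00.symm]),
                Finset.card_insert_of_notMem (by simp [ha1.symm, hl1.symm]),
                Finset.card_pair hne] at this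
              omega
            exact hv.2.2 (by simp [hE, ha, this])
          · obtain ⟨v, hv⟩ := exists_avoid [LinearMap.ker b, P, E, R]
              (by simp [hbtop, hPtop, hEtop, hRtop]) (by simp; omega) (by omega)
            simp at hv
            exact ⟨v, by simpa using hv.1, hv.2.1, fun a ha =>
              hv.2.2.2 (hother v (by simpa using hv.2.2.1) a ha)⟩
        exact ⟨v, by simpa using h1, h2, fun hf hr3 => absurd ⟨hf, hr3⟩ hr', h3,
          fun hf hq' hr2 => absurd ⟨hf, hq', hr2⟩ hC⟩
      · obtain ⟨v, h3⟩ : ∃ v, v ∉ LinearMap.ker b ∧ v ∉ P ∧ v ∉ I ∨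
            (q = 2 ∧ ¬ full ∧ v ∉ LinearMap.ker b ∧ v ∉ P) := by
          rcases Nat.lt_or_ge q 3 with hq' | hq'
          · by_cases hr3 : 3 ≤ finrank F I
            · obtain ⟨v, h1, h2, h3⟩ := exists_avoid_three (LinearMap.ker b) I P hbtop hIt (by omega)
              exact ⟨v, Or.inl ⟨h1, h3, h2⟩⟩
            · obtain ⟨v, hv⟩ := exists_avoid [LinearMap.ker b, P]
                (by simp [hbtop, hPtop]) (by simp; omega) (by omega)
              simp at hv
              exact ⟨v, Or.inr ⟨by omega, fun hf => hC ⟨hf, by omega, by omega⟩,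
                by simpa using hv.1, hv.2⟩⟩
          · obtain ⟨v, hv⟩ := exists_avoid [LinearMap.ker b, P, I]
              (by simp [hbtop, hPtop, hIt]) (by simp; omega) (by omega)
            simp at hv
            exact ⟨v, Or.inl ⟨by simpa using hv.1, hv.2.1, by simpa using hv.2.2⟩⟩
        rcases h3 with ⟨h1, h2, h3⟩ | ⟨hq', hnf, h1, h2⟩
        · exact ⟨v, by simpa using h1, h2, fun _ _ => h3, fun a ha => h3 (heigI v h2 a ha),
            fun hf hq' hr2 => absurd ⟨hf, hq', hr2⟩ hC⟩
        · refine ⟨v, by simpa using h1, h2, fun hf => absurd hf hnf, fun a ha => ?_,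
            fun hf => absurd hf hnf⟩
          have hv0 : v ≠ 0 := fun h => h1 (by simp [h])
          have ha1 : a ≠ 1 := fun h => h2 (by simp [hP, hT, ha, h])
          have ha0 : a ≠ 0 := fun h => hv0 (hinj (by rw [ha, h, zero_smul, map_zero]))
          have := Finset.card_le_card (Finset.subset_univ ({0, 1, a} : Finset F))
          rw [Finset.card_insert_of_notMem (by simp [ha0.symm]), Finset.card_pair ha1.symm,
            Finset.card_univ] at this
          omega
  -- the functional
  set w := T v with hw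
  have hw0 : w ≠ 0 := fun h => hvP (by
    rw [hP, Submodule.mem_comap, ← hw, h]; exact Submodule.zero_mem _)
  have hSv : S v = v + w := by simp [hw, hT]
  have hvw : v ∉ Submodule.span F {w} := by
    intro h
    obtain ⟨a, ha⟩ := Submodule.mem_span_singleton.1 h
    have ha0 : a ≠ 0 := fun h0 => hvb (by rw [← ha, h0, zero_smul, map_zero])
    exact hveig (1 + a⁻¹) (by
      rw [hSv, add_smul, one_smul, ← ha, smul_smul, inv_mul_cancel₀ ha0, one_smul])
  obtain ⟨φ₀, hφ₀v, hφ₀w⟩ := exists_dual_one hvw
  have hφ₀w' : φ₀ w = 0 := hφ₀w w (Submodule.mem_span_singleton_self w)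
  set W := Submodule.span F {v, w} with hW
  have hW2 : finrank F W ≤ 2 := by
    refine (finrank_span_le_card (R := F) ({v, w} : Set V)).trans ?_
    simpa using Finset.card_le_two (a := v) (b := w)
  have hWnz : ∀ x, x ∈ W → x ∉ Submodule.span F {w} → φ₀ x ≠ 0 := by
    intro x hx hxw
    obtain ⟨a, a', rfl⟩ := Submodule.mem_span_pair.1 hx
    simp [hφ₀v, hφ₀w']
    intro ha
    exact hxw (Submodule.mem_span_singleton.2 ⟨a', by rw [ha, zero_smul, zero_add]⟩)
  have hcw : c ∉ Submodule.span F {w} := fun h => by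
    obtain ⟨a, ha⟩ := Submodule.mem_span_singleton.1 h
    have ha0 : a ≠ 0 := fun h0 => hc (by rw [← ha, h0, zero_smul])
    refine hvP (Submodule.mem_comap.2 (Submodule.mem_span_singleton.2 ⟨a⁻¹, ?_⟩))
    rw [← ha, smul_smul, inv_mul_cancel₀ ha0, one_smul]
  have hfin : ∀ φ : Module.Dual F V, (∀ y ∈ W, φ y = φ₀ y) → ∃ hSv' : φ (S v) = 1,
      φ v = 1 ∧ φ w = 0 ∧ (full → (∃ x ∈ I, φ x ≠ 0) →
        (finrank F I = 2 → ∃ k, T k = 0 ∧ φ k ≠ 0) →
        (∃ x, φ x = 0 ∧ φ (S x) ≠ 0) ∧
          2 ≤ finrank F (LinearMap.range (redMap S φ v hSv' - 1))) := by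
    intro φ hφ
    have h1 : φ v = 1 := by rw [hφ v (Submodule.subset_span (by simp)), hφ₀v]
    have h2 : φ w = 0 := by rw [hφ w (Submodule.subset_span (by simp)), hφ₀w']
    have hSv' : φ (S v) = 1 := by rw [hSv, map_add, h1, h2, add_zero]
    refine ⟨hSv', h1, h2, fun hf ⟨z, ⟨x, hx⟩, hz⟩ hk => ⟨?_, ?_⟩⟩
    · refine ⟨x - φ x • v, by simp [h1], ?_⟩
      have e : S (x - φ x • v) = (x - φ x • v) + (T x - φ x • w) := by
        simp [hw, hT, smul_sub]
        abel
      rw [e, map_add, map_sub φ (T x), map_smul φ, h2, smul_zero, sub_zero, hx]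
      simpa [h1] using hz
    · have hrank : finrank F (Submodule.map ((LinearMap.id - φ.smulRight (S v)).comp T)
          (LinearMap.ker φ)) ≤ finrank F (LinearMap.range (redMap S φ v hSv' - 1)) := by
        refine le_trans (Submodule.finrank_mono ?_)
          (Submodule.finrank_map_le (LinearMap.ker φ).subtype _)
        rintro _ ⟨h, hh, rfl⟩
        refine ⟨(redMap S φ v hSv' - 1) ⟨h, hh⟩, ⟨_, rfl⟩, ?_⟩
        simp at hh
        simp [hT, hh]
        abel
      obtain ⟨ha, hb', hc'⟩ := rank_red (T := T) h1 hSv'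
      have eI : finrank F I = finrank F (LinearMap.range T) := rfl
      rcases Nat.lt_or_ge (finrank F I) 4 with hr4 | hr4
      · have hu : S v ∉ I := fun h => hvI hf (by omega) (by
          rw [hSv] at h
          simpa [hw] using I.sub_mem h (LinearMap.mem_range_self T v))
        rcases Nat.lt_or_ge (finrank F I) 3 with hr3 | hr3
        · have := hc' hu (hk (by omega)); omega
        · have := hb' hu; omega
      · omega
  have hscal : ∀ (φ : Module.Dual F V) (hSv' : φ (S v) = 1), φ v = 1 → finrank F I = 2 →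
      4 ≤ finrank F V → ∀ l : F, redMap S φ v hSv' = l • 1 → l = 1 := by
    intro φ hSv' h1 hr2 hm4 l hl
    by_contra hl1
    have hle : LinearMap.ker φ ≤ Submodule.map ((LinearMap.id - φ.smulRight (S v)).comp T)
        (LinearMap.ker φ) := by
      intro h hh
      refine ⟨(l - 1)⁻¹ • h, Submodule.smul_mem _ _ hh, ?_⟩
      have := congrArg (Subtype.val) (LinearMap.congr_fun hl ⟨h, hh⟩)
      simp at this hh
      simp [hT, hh, map_sub]
      rw [show S h - φ (S h) • S v - h = (l - 1) • h by rw [sub_smul, one_smul, ← this],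
        smul_smul, inv_mul_cancel₀ (sub_ne_zero.2 hl1), one_smul]
    have h2 := Submodule.finrank_mono hle
    have h3 : finrank F (Submodule.map ((LinearMap.id - φ.smulRight (S v)).comp T)
        (LinearMap.ker φ)) ≤ 2 := by
      rw [Submodule.map_comp]
      exact (Submodule.finrank_map_le _ _).trans ((Submodule.finrank_mono LinearMap.map_le_range).trans hr2.le)
    have h4 := LinearMap.finrank_range_add_finrank_ker φ
    have h5 := (Submodule.finrank_le (LinearMap.range φ)).trans (le_of_eq (Module.finrank_self F))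
    omega
  by_cases hC : full ∧ finrank F I = 2
  · obtain ⟨hf, hr2⟩ := hC
    have hm4 := (hfull hf).1
    -- values on `c`, on the image and on the kernel
    suffices h : ∃ φ : Module.Dual F V, (∀ y ∈ W, φ y = φ₀ y) ∧ φ c ≠ 0 ∧ (∃ z ∈ I, φ z ≠ 0) ∧
        ∃ k, T k = 0 ∧ φ k ≠ 0 by
      obtain ⟨φ, hφ, h1, h2, h3⟩ := h
      obtain ⟨hSv', e1, -, e3⟩ := hfin φ hφ
      exact ⟨v, φ, hSv', e1, hvb, h1, hw0, hscal φ hSv' e1 hr2 hm4, fun _ => e3 hf h2 fun _ => h3⟩
    obtain ⟨z, hzI, hzw⟩ : ∃ z ∈ I, z ∉ Submodule.span F {w} := by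
      by_contra hcon
      push Not at hcon
      have := (Submodule.finrank_mono (show I ≤ Submodule.span F {w} from hcon)).trans
        ((finrank_span_le_card (R := F) ({w} : Set V)).trans (by simp : _ ≤ 1))
      omega
    by_cases hq3 : q ≤ 3
    · obtain ⟨k, hkK, hkc, hkU⟩ := hU hf hq3 hr2
      have hkK' : T k = 0 := LinearMap.mem_ker.1 hkK
      set U₀ := I ⊔ Submodule.span F {c} with hU₀
      have hwI : w ∈ I := ⟨v, rfl⟩
      -- on `U₀`
      obtain ⟨ψ, hψw, hψc, hψz⟩ : ∃ ψ : Module.Dual F V, ψ w = 0 ∧ ψ c ≠ 0 ∧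
          ∃ z ∈ I, ψ z ≠ 0 := by
        by_cases hcI : c ∈ I
        · obtain ⟨e, he, hew⟩ := exists_dual_one hcw
          exact ⟨e, hew w (Submodule.mem_span_singleton_self w), by rw [he]; exact one_ne_zero,
            c, hcI, by rw [he]; exact one_ne_zero⟩
        · obtain ⟨e, he, hew⟩ := exists_dual_one hzw
          obtain ⟨e', he', hew'⟩ := exists_dual_extend hcI 1 e
          exact ⟨e', by rw [hew' w hwI, hew w (Submodule.mem_span_singleton_self w)],
            by rw [he']; exact one_ne_zero, z, hzI, by rw [hew' z hzI, he]; exact one_ne_zero⟩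
      -- on `k`
      obtain ⟨ψ', hψ'k, hψ'U⟩ : ∃ ψ' : Module.Dual F V, ψ' k ≠ 0 ∧ ∀ y ∈ U₀, ψ' y = ψ y := by
        rcases hkc with rfl | hk
        · exact ⟨ψ, hψc, fun _ _ => rfl⟩
        · obtain ⟨e, he, heU⟩ := exists_dual_extend hk 1 ψ
          exact ⟨e, by rw [he]; exact one_ne_zero, heU⟩
      obtain ⟨φ, hφv, hφU⟩ := exists_dual_extend hkU 1 ψ'
      obtain ⟨z', hz'I, hψz'⟩ := hψz
      have eU : ∀ y ∈ U₀, φ y = ψ y := fun y hy => by
        rw [hφU y (Submodule.mem_sup_left hy), hψ'U y hy]
      refine ⟨φ, fun y hy => ?_, ?_, ⟨z', hz'I, ?_⟩, k, hkK', ?_⟩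
      · obtain ⟨a, a', rfl⟩ := Submodule.mem_span_pair.1 hy
        simp [hφv, hφ₀v, hφ₀w', eU w (Submodule.mem_sup_left hwI), hψw]
      · rw [eU c (Submodule.mem_sup_right (Submodule.mem_span_singleton_self c))]; exact hψc
      · rw [eU z' (Submodule.mem_sup_left hz'I)]; exact hψz'
      · rw [hφU k (Submodule.mem_sup_right (Submodule.mem_span_singleton_self k))]; exact hψ'k
    · obtain ⟨k, hkK, hkw⟩ : ∃ k ∈ K, k ∉ Submodule.span F {w} := by
        by_contra hcon
        push Not at hcon
        have := (Submodule.finrank_mono (show K ≤ Submodule.span F {w} from hcon)).trans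
          ((finrank_span_le_card (R := F) ({w} : Set V)).trans (by simp : _ ≤ 1))
        omega
      obtain ⟨φ, hφ, hl⟩ := exists_dual_nonvanish W φ₀ [c, z, k]
        (by simp; exact ⟨fun h => hWnz c h hcw, fun h => hWnz z h hzw, fun h => hWnz k h hkw⟩)
        (by simp; omega)
      simp at hl
      exact ⟨φ, hφ, hl.1, ⟨z, hzI, hl.2.1⟩, k, LinearMap.mem_ker.1 hkK, hl.2.2⟩
  rcases Nat.lt_or_ge q 3 with hq3 | hq3
  · -- two elements
    have hscal2 : ∀ (φ : Module.Dual F V) (hSv' : φ (S v) = 1), φ v = 1 →
        ∀ l : F, redMap S φ v hSv' = l • 1 → l = 1 := by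
      intro φ hSv' h1 l hl
      by_contra hl1
      rcases eq_or_ne l 0 with rfl | hl0
      · -- then a kernel vector maps to a multiple of `S v`
        obtain ⟨h, hh, hh0⟩ : ∃ h, φ h = 0 ∧ h ≠ 0 := by
          by_contra hcon
          push Not at hcon
          have hk : LinearMap.ker φ = ⊥ := eq_bot_iff.2 fun x hx => hcon x hx
          have h4 := LinearMap.finrank_range_add_finrank_ker φ
          have h5 := (Submodule.finrank_le (LinearMap.range φ)).trans (le_of_eq (Module.finrank_self F))
          rw [hk, finrank_bot] at h4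
          omega
        have := congrArg Subtype.val (LinearMap.congr_fun hl ⟨h, hh⟩)
        simp [sub_eq_zero] at this
        rw [← map_smul] at this
        have := hinj this
        rw [this, map_smul, h1, smul_eq_mul, mul_one] at hh
        exact hh0 (by rw [this, hh, zero_smul])
      · have := Finset.card_le_card (Finset.subset_univ ({0, 1, l} : Finset F))
        rw [Finset.card_insert_of_notMem (by simp [hl0.symm]), Finset.card_pair (Ne.symm hl1),
          Finset.card_univ] at this
        omega
    by_cases hf : full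
    · -- rank at least three
      have hr3 : 3 ≤ finrank F I := by
        by_contra h; exact hC ⟨hf, by omega⟩
      obtain ⟨φ, hφ, h1, z, hzI, hz⟩ : ∃ φ : Module.Dual F V, (∀ y ∈ W, φ y = φ₀ y) ∧ φ c ≠ 0 ∧
          ∃ z ∈ I, φ z ≠ 0 := by
        obtain ⟨φ, hφ, hl⟩ := exists_dual_nonvanish W φ₀ [c]
          (by simp; exact fun h => hWnz c h hcw) (by simp; omega)
        simp at hl
        by_cases hvI' : v ∈ I
        · exact ⟨φ, hφ, hl, v, hvI', by
            rw [hφ v (Submodule.subset_span (by simp)), hφ₀v]; exact one_ne_zero⟩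
        set W' := W ⊔ Submodule.span F {c} with hW'
        obtain ⟨z, hzI, hzW⟩ : ∃ z ∈ I, z ∉ W' := by
          by_contra hcon
          push Not at hcon
          have h3 : finrank F W' ≤ 3 := by
            have := Submodule.finrank_add_le_finrank_add_finrank W (Submodule.span F {c})
            have := (finrank_span_le_card (R := F) ({c} : Set V)).trans (by simp : _ ≤ 1)
            rw [← hW'] at *
            omega
          have := Submodule.eq_of_le_of_finrank_le (show I ≤ W' from hcon) (by omega)
          exact hvI' (this ▸ Submodule.mem_sup_left (Submodule.subset_span (by simp)))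
        obtain ⟨φ', hφ'z, hφ'⟩ := exists_dual_extend hzW 1 φ
        exact ⟨φ', fun y hy => by rw [hφ' y (Submodule.mem_sup_left hy), hφ y hy],
          by rw [hφ' c (Submodule.mem_sup_right (Submodule.mem_span_singleton_self c))]; exact hl,
          z, hzI, by rw [hφ'z]; exact one_ne_zero⟩
      obtain ⟨hSv', e1, -, e3⟩ := hfin φ hφ
      exact ⟨v, φ, hSv', e1, hvb, h1, hw0, hscal2 φ hSv' e1,
        fun _ => e3 hf ⟨z, hzI, hz⟩ fun h => absurd h (by omega)⟩
    · obtain ⟨φ, hφ, hl⟩ := exists_dual_nonvanish W φ₀ [c]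
        (by simp; exact fun h => hWnz c h hcw) (by simp; omega)
      simp at hl
      obtain ⟨hSv', e1, -, -⟩ := hfin φ hφ
      exact ⟨v, φ, hSv', e1, hvb, hl, hw0, hscal2 φ hSv' e1, fun h => absurd h hf⟩
  -- at least three elements: two functionals
  obtain ⟨z, hzI, hzw⟩ : ∃ z ∈ I, z ∉ Submodule.span F {w} := by
    by_contra hcon
    push Not at hcon
    have := (Submodule.finrank_mono (show I ≤ Submodule.span F {w} from hcon)).trans
      ((finrank_span_le_card (R := F) ({w} : Set V)).trans (by simp : _ ≤ 1))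
    omega
  obtain ⟨φ, hφ, hl⟩ := exists_dual_nonvanish W φ₀ [c, z]
    (by simp; exact ⟨fun h => hWnz c h hcw, fun h => hWnz z h hzw⟩) (by simp; omega)
  simp at hl
  obtain ⟨ψ, hne, hψW, hψc, hψz⟩ : ∃ ψ : Module.Dual F V, ψ ≠ φ ∧ (∀ y ∈ W, ψ y = φ₀ y) ∧
      ψ c ≠ 0 ∧ ψ z ≠ 0 := by
    by_cases hq4 : 4 ≤ q
    · obtain ⟨ψ, h1, h2, h3⟩ := exists_dual_second (p := W)
        (fun h => by rw [h, finrank_top] at hW2; omega) φ [c, z] (by simp [hl]) (by simp; omega)
      simp at h3
      exact ⟨ψ, h1, fun y hy => by rw [h2 y hy, hφ y hy], h3⟩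
    · set W' := W ⊔ Submodule.span F {c} with hW'
      have hW'3 : finrank F W' ≤ 3 := by
        have := Submodule.finrank_add_le_finrank_add_finrank W (Submodule.span F {c})
        have := (finrank_span_le_card (R := F) ({c} : Set V)).trans (by simp : _ ≤ 1)
        rw [← hW'] at *
        omega
      obtain ⟨ψ, h1, h2, h3⟩ := exists_dual_second (p := W')
        (fun h => by rw [h, finrank_top] at hW'3; have := hm3 (by omega); omega) φ [z]
        (by simp [hl]) (by simp; omega)
      simp at h3
      exact ⟨ψ, h1, fun y hy => by rw [h2 y (Submodule.mem_sup_left hy), hφ y hy], by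
        rw [h2 c (Submodule.mem_sup_right (Submodule.mem_span_singleton_self c))]; exact hl.1, h3⟩
  obtain ⟨hS1, e1, -, e3⟩ := hfin φ hφ
  obtain ⟨hS2, e1', -, e3'⟩ := hfin ψ hψW
  have hr3 : full → finrank F I = 2 → ∃ k, T k = 0 ∧ φ k ≠ 0 := fun hf h => absurd ⟨hf, h⟩ hC
  have hr3' : full → finrank F I = 2 → ∃ k, T k = 0 ∧ ψ k ≠ 0 := fun hf h => absurd ⟨hf, h⟩ hC
  by_cases hgood : ∀ l : F, redMap S φ v hS1 = l • 1 → l = 1
  · exact ⟨v, φ, hS1, e1, hvb, hl.1, hw0, hgood, fun hf => e3 hf ⟨z, hzI, hl.2⟩ (hr3 hf)⟩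
  refine ⟨v, ψ, hS2, e1', hvb, hψc, hw0, fun l' hl' => ?_,
    fun hf => e3' hf ⟨z, hzI, hψz⟩ (hr3' hf)⟩
  push Not at hgood
  obtain ⟨l, hll, hl1⟩ := hgood
  exfalso
  have hl0 : l ≠ 0 := by
    rintro rfl
    obtain ⟨h, hh, hh0⟩ : ∃ h, φ h = 0 ∧ h ≠ 0 := by
      by_contra hcon
      push Not at hcon
      have hk : LinearMap.ker φ = ⊥ := eq_bot_iff.2 fun x hx => hcon x hx
      have h4 := LinearMap.finrank_range_add_finrank_ker φ
      have h5 := (Submodule.finrank_le (LinearMap.range φ)).trans (le_of_eq (Module.finrank_self F))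
      rw [hk, finrank_bot] at h4
      omega
    have := congrArg Subtype.val (LinearMap.congr_fun hll ⟨h, hh⟩)
    simp [sub_eq_zero] at this
    rw [← map_smul] at this
    have := hinj this
    rw [this, map_smul, e1, smul_eq_mul, mul_one] at hh
    exact hh0 (by rw [this, hh, zero_smul])
  exact not_both_scalar hm hveig (Ne.symm hne) e1 e1' hS1 hS2 hl0
    (fun h hh => by simpa using congrArg Subtype.val (LinearMap.congr_fun hll ⟨h, hh⟩))
    (fun h hh => by simpa using congrArg Subtype.val (LinearMap.congr_fun hl' ⟨h, hh⟩))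

end Cfsg.Agent.H87.Ore
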