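import Mathlib

/-!
Vectors avoiding a few subspaces, functionals avoiding a few zeros.
-/

set_option autoImplicit false

namespace Cfsg.Agent.H87.Ore

open Module

variable {F V : Type*} [Field F] [AddCommGroup V] [Module F V]

lemma exists_dual_one {p : Submodule F V} {x : V} (hx : x ∉ p) :
    ∃ f : Module.Dual F V, f x = 1 ∧ ∀ y ∈ p, f y = 0 := by
  obtain ⟨f, hf, hp⟩ := Submodule.exists_dual_map_eq_bot_of_notMem hx inferInstance
  refine ⟨(f x)⁻¹ • f, by simp [hf], fun y hy => ?_⟩
  have : f y ∈ p.map f := Submodule.mem_map_of_mem hy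
  rw [hp, Submodule.mem_bot] at this
  simp [this]

lemma exists_dual_extend {p : Submodule F V} {x : V} (hx : x ∉ p) (a : F)
    (f₀ : Module.Dual F V) : ∃ f : Module.Dual F V, f x = a ∧ ∀ y ∈ p, f y = f₀ y := by
  obtain ⟨e, he, hep⟩ := exists_dual_one hx
  exact ⟨f₀ + (a - f₀ x) • e, by simp [he], fun y hy => by simp [hep y hy]⟩

variable [Fintype F] [FiniteDimensional F V]

/-- A vector space is not the union of at most `|F|` proper subspaces. -/
theorem exists_avoid (s : List (Submodule F V)) (hs : ∀ p ∈ s, p ≠ ⊤)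
    (hlen : s.length ≤ Fintype.card F) (hV : 0 < finrank F V) : ∃ x : V, ∀ p ∈ s, x ∉ p := by
  classical
  have : Finite V := Module.finite_of_finite F
  have := Fintype.ofFinite V
  set q := Fintype.card F
  have hq : 1 < q := Fintype.one_lt_card
  obtain ⟨k, hk⟩ : ∃ k, finrank F V = k + 1 := ⟨finrank F V - 1, by omega⟩
  have hcard : Fintype.card V = q ^ (k + 1) := by rw [← hk]; exact Module.card_eq_pow_finrank
  by_contra hcon
  push Not at hcon
  have bound : ∀ p ∈ s, (Finset.univ.filter fun x : V => x ∈ p ∧ x ≠ 0).card + 1 ≤ q ^ k := by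
    intro p hp
    have h1 : (Finset.univ.filter fun x : V => x ∈ p ∧ x ≠ 0).card + 1 = Fintype.card p := by
      rw [show (Finset.univ.filter fun x : V => x ∈ p ∧ x ≠ 0) =
        (Finset.univ.filter fun x : V => x ∈ p).erase 0 by ext; simp [and_comm],
        Finset.card_erase_add_one (by simp [p.zero_mem]), Fintype.card_subtype]
    rw [h1, Module.card_eq_pow_finrank (K := F)]
    exact Nat.pow_le_pow_right (by omega) (by have := Submodule.finrank_lt (hs p hp); omega)
  have hsub : ((Finset.univ : Finset V).erase 0).card ≤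
      (s.map fun p => (Finset.univ.filter fun x : V => x ∈ p ∧ x ≠ 0).card).sum := by
    clear bound hlen hs
    suffices h : ∀ t : Finset V, (∀ x ∈ t, x ≠ 0 ∧ ∃ p ∈ s, x ∈ p) → t.card ≤
        (s.map fun p => (Finset.univ.filter fun x : V => x ∈ p ∧ x ≠ 0).card).sum from
      h _ fun x hx => ⟨Finset.ne_of_mem_erase hx, hcon x⟩
    clear hcon
    induction s with
    | nil =>
      intro t ht
      rw [show t = ∅ from Finset.eq_empty_of_forall_notMem fun x hx => by simpa using (ht x hx).2]
      simp
    | cons p s ih =>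
      intro t ht
      rw [List.map_cons, List.sum_cons,
        ← Finset.card_filter_add_card_filter_not (s := t) (fun x => x ∈ p)]
      refine Nat.add_le_add (Finset.card_le_card fun x hx => ?_) (ih _ fun x hx => ?_)
      · rw [Finset.mem_filter] at hx ⊢
        exact ⟨Finset.mem_univ _, hx.2, (ht x hx.1).1⟩
      · rw [Finset.mem_filter] at hx
        obtain ⟨h0, p', hp', hx'⟩ := ht x hx.1
        rcases List.mem_cons.1 hp' with rfl | hp'
        · exact absurd hx' hx.2
        · exact ⟨h0, p', hp', hx'⟩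
  have hsum : (s.map fun p => (Finset.univ.filter fun x : V => x ∈ p ∧ x ≠ 0).card).sum ≤
      s.length * (q ^ k - 1) := by
    refine (List.sum_le_card_nsmul _ (q ^ k - 1) fun x hx => ?_).trans (le_of_eq (by simp))
    obtain ⟨p, hp, rfl⟩ := List.mem_map.1 hx
    have := bound p hp
    omega
  rw [Finset.card_erase_of_mem (Finset.mem_univ _), Finset.card_univ, hcard, pow_succ'] at hsub
  have h2 : s.length * (q ^ k - 1) ≤ q * (q ^ k - 1) := Nat.mul_le_mul_right _ hlen
  have h1 : 1 ≤ q ^ k := Nat.one_le_pow _ _ (by omega)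
  rw [Nat.mul_sub q, mul_one] at h2
  have : q ≤ q * q ^ k := Nat.le_mul_of_pos_right _ (by omega)
  omega

/-- Two proper subspaces and one of codimension at least two do not cover. -/
theorem exists_avoid_three (a b c : Submodule F V) (ha : a ≠ ⊤) (hb : b ≠ ⊤)
    (hc : finrank F c + 2 ≤ finrank F V) : ∃ x : V, x ∉ a ∧ x ∉ b ∧ x ∉ c := by
  obtain ⟨xa, hxa⟩ : ∃ x, x ∉ a := by
    by_contra h; push Not at h; exact ha (eq_top_iff.2 fun x _ => h x)
  obtain ⟨xb, hxb⟩ : ∃ x, x ∉ b := by
    by_contra h; push Not at h; exact hb (eq_top_iff.2 fun x _ => h x)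
  obtain ⟨α, hα, hαa⟩ := exists_dual_one hxa
  obtain ⟨β, hβ, hβb⟩ := exists_dual_one hxb
  by_contra hcon
  push Not at hcon
  have hmem : ∀ x, α x ≠ 0 → β x ≠ 0 → x ∈ c := fun x h1 h2 =>
    hcon x (fun h => h1 (hαa x h)) (fun h => h2 (hβb x h))
  obtain ⟨x₀, h1, h2⟩ : ∃ x, α x ≠ 0 ∧ β x ≠ 0 := by
    by_cases h : β xa ≠ 0
    · exact ⟨xa, by rw [hα]; exact one_ne_zero, h⟩
    by_cases h' : α xb ≠ 0
    · exact ⟨xb, h', by rw [hβ]; exact one_ne_zero⟩
    push Not at h h'
    exact ⟨xa + xb, by simp [hα, h'], by simp [hβ, h]⟩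
  set D := LinearMap.ker α ⊓ LinearMap.ker β with hD
  have hx₀ : x₀ ∈ c := hmem x₀ h1 h2
  have hle : D ⊔ Submodule.span F {x₀} ≤ c := by
    refine sup_le (fun d hd => ?_) ((Submodule.span_singleton_le_iff_mem _ _).2 hx₀)
    obtain ⟨hd1, hd2⟩ := Submodule.mem_inf.1 hd
    rw [LinearMap.mem_ker] at hd1 hd2
    have := c.sub_mem (hmem (x₀ + d) (by simpa [hd1] using h1) (by simpa [hd2] using h2)) hx₀
    simpa using this
  have hx0D : x₀ ∉ D := fun h => h1 (LinearMap.mem_ker.1 (Submodule.mem_inf.1 h).1)
  have hlt : finrank F D < finrank F c :=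
    Submodule.finrank_lt_finrank_of_lt (lt_of_le_of_ne (le_sup_left.trans hle)
      fun h => hx0D (h ▸ hx₀))
  have k1 := LinearMap.finrank_range_add_finrank_ker (α.prod β)
  rw [LinearMap.ker_prod, ← hD] at k1
  have k2 : finrank F (LinearMap.range (α.prod β)) ≤ 2 := by
    refine (Submodule.finrank_le _).trans (le_of_eq ?_)
    simp
  omega

omit [FiniteDimensional F V] in
/-- A functional with prescribed values on `p` that avoids a short list of zeros. -/
theorem exists_dual_nonvanish (p : Submodule F V) (f₀ : Module.Dual F V) :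
    ∀ l : List V, (∀ x ∈ l, x ∈ p → f₀ x ≠ 0) → l.length < Fintype.card F →
      ∃ f : Module.Dual F V, (∀ y ∈ p, f y = f₀ y) ∧ ∀ x ∈ l, f x ≠ 0
  | [], _, _ => ⟨f₀, fun _ _ => rfl, by simp⟩
  | x :: l, hl, hlen => by
    classical
    obtain ⟨f, hf, hfl⟩ := exists_dual_nonvanish p f₀ l
      (fun y hy => hl y (List.mem_cons_of_mem _ hy)) (by simp at hlen; omega)
    by_cases hx : f x ≠ 0
    · refine ⟨f, hf, fun y hy => ?_⟩
      rcases List.mem_cons.1 hy with rfl | hy
      · exact hx
      · exact hfl y hy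
    push Not at hx
    have hxp : x ∉ p := fun h => hl x (List.mem_cons_self ..) h (by rw [← hf x h, hx])
    obtain ⟨e, he, hep⟩ := exists_dual_one hxp
    obtain ⟨t, ht0, ht⟩ : ∃ t : F, t ≠ 0 ∧ ∀ y ∈ l, f y + t * e y ≠ 0 := by
      by_contra hcon
      push Not at hcon
      let bad : Finset F := insert 0 (l.map fun y => -(f y) / e y).toFinset
      have hb : bad.card < (Finset.univ : Finset F).card := by
        refine lt_of_le_of_lt (Finset.card_insert_le _ _) ?_
        have := List.toFinset_card_le (l.map fun y => -(f y) / e y)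
        simp at this hlen
        rw [Finset.card_univ]; omega
      obtain ⟨t, -, ht⟩ := Finset.exists_mem_notMem_of_card_lt_card hb
      simp only [bad, Finset.mem_insert, List.mem_toFinset, List.mem_map, not_or, not_exists,
        not_and] at ht
      obtain ⟨y, hy, hz⟩ := hcon t ht.1
      by_cases hey : e y = 0
      · exact hfl y hy (by simpa [hey] using hz)
      · exact ht.2 y hy (by field_simp; linear_combination -hz)
    refine ⟨f + t • e, fun y hy => by simp [hep y hy, hf y hy], fun y hy => ?_⟩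
    rcases List.mem_cons.1 hy with rfl | hy
    · simp [hx, he, ht0]
    · simpa using ht y hy

omit [FiniteDimensional F V] in
/-- A second functional with the same properties. -/
theorem exists_dual_second {p : Submodule F V} (hp : p ≠ ⊤) (f : Module.Dual F V) (l : List V)
    (hl : ∀ x ∈ l, f x ≠ 0) (hlen : l.length + 2 ≤ Fintype.card F) :
    ∃ f' : Module.Dual F V, f' ≠ f ∧ (∀ y ∈ p, f' y = f y) ∧ ∀ x ∈ l, f' x ≠ 0 := by
  classical
  obtain ⟨x₀, hx₀⟩ : ∃ x, x ∉ p := by
    by_contra h; push Not at h; exact hp (eq_top_iff.2 fun x _ => h x)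
  obtain ⟨e, he, hep⟩ := exists_dual_one hx₀
  let bad : Finset F := insert 0 (l.map fun y => -(f y) / e y).toFinset
  have hb : bad.card < (Finset.univ : Finset F).card := by
    refine lt_of_le_of_lt (Finset.card_insert_le _ _) ?_
    have := List.toFinset_card_le (l.map fun y => -(f y) / e y)
    simp at this
    rw [Finset.card_univ]; omega
  obtain ⟨t, -, ht⟩ := Finset.exists_mem_notMem_of_card_lt_card hb
  simp only [bad, Finset.mem_insert, List.mem_toFinset, List.mem_map, not_or, not_exists,
    not_and] at ht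
  refine ⟨f + t • e, fun h => ht.1 ?_, fun y hy => by simp [hep y hy], fun y hy => ?_⟩
  · have := LinearMap.congr_fun h x₀
    simpa [he] using this
  · intro hz
    simp at hz
    by_cases hey : e y = 0
    · exact hl y hy (by simpa [hey] using hz)
    · exact ht.2 y hy (by field_simp; linear_combination -hz)

end Cfsg.Agent.H87.Ore
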