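import Mathlib

/-!
Scalar matrices of determinant one as commutators.
-/

set_option autoImplicit false

namespace Cfsg.Agent.H87.Ore

open Matrix

variable {F : Type*} [Field F]

/-- The diagonal matrix of the powers of `l`. -/
def powDiag (l : F) (n : ℕ) : Matrix (Fin n) (Fin n) F := diagonal fun i => l ^ (i : ℕ)

/-- The weighted cycle. -/
def cyc (n : ℕ) (e : F) : Matrix (Fin (n + 1)) (Fin (n + 1)) F :=
  of fun i j => if finRotate (n + 1) j = i then (if j = Fin.last n then e else 1) else 0

lemma det_cyc (n : ℕ) : (cyc n ((-1 : F) ^ n)).det = 1 := by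
  have h : cyc n ((-1 : F) ^ n) = ((finRotate (n + 1)).permMatrix F)ᵀ *
      diagonal (fun j => if j = Fin.last n then (-1 : F) ^ n else 1) := by
    ext i j
    rw [Matrix.mul_diagonal, Matrix.transpose_apply]
    simp only [cyc, of_apply, Equiv.Perm.permMatrix, PEquiv.toMatrix_apply,
      Equiv.toPEquiv_apply, Option.mem_def, Option.some.injEq]
    split_ifs <;> simp
  rw [h, det_mul, det_transpose, det_permutation, det_diagonal, Finset.prod_ite_eq' Finset.univ]
  simp [← pow_add, sign_finRotate]

lemma powDiag_mul_cyc {n : ℕ} {l e : F} (hl : l ^ (n + 1) = 1) :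
    powDiag l (n + 1) * cyc n e = l • (cyc n e * powDiag l (n + 1)) := by
  ext i j
  simp only [powDiag, diagonal_mul, Matrix.smul_apply, mul_diagonal, cyc, of_apply, smul_eq_mul]
  by_cases h : finRotate (n + 1) j = i
  · subst h
    rw [if_pos rfl, coe_finRotate]
    by_cases hj : j = Fin.last n
    · subst hj
      simp only [if_pos, pow_zero, one_mul, Fin.val_last]
      rw [mul_left_comm, ← pow_succ', hl, mul_one]
    · simp only [if_neg hj, one_mul, mul_one, pow_succ']
  · simp only [if_neg h, mul_zero, zero_mul]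

/-- Twice the size, with square `-1`. -/
def skew (F : Type*) [Field F] (m n : ℕ) : Matrix (Fin n) (Fin n) F :=
  of fun i j => if (i : ℕ) = j + m then 1 else if (i : ℕ) + m = j then -1 else 0

lemma skew_mul_cyc {m n : ℕ} (hn : n + 1 = 2 * m) :
    skew F m (n + 1) * cyc n (-1) = cyc n (-1) * skew F m (n + 1) := by
  ext i j
  obtain ⟨k, rfl⟩ := (finRotate (n + 1)).surjective i
  rw [mul_apply, mul_apply, Finset.sum_eq_single (finRotate (n + 1) j),
    Finset.sum_eq_single k]
  rotate_left
  · intro b _ hb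
    simp only [cyc, of_apply, if_neg (show ¬ finRotate (n + 1) b = finRotate (n + 1) k from
      fun h => hb ((finRotate (n + 1)).injective h)), zero_mul]
  · exact fun h => absurd (Finset.mem_univ _) h
  · intro b _ hb
    simp only [cyc, of_apply, if_neg (Ne.symm hb), mul_zero]
  · exact fun h => absurd (Finset.mem_univ _) h
  have hj := j.isLt
  have hk := k.isLt
  simp only [skew, cyc, of_apply, if_true, coe_finRotate, Fin.ext_iff, Fin.val_last]
  split_ifs <;> first | omega | ring

lemma det_skew_comb {m : ℕ} (a b : F) :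
    (a • 1 + b • skew F m (2 * m)).det = (a ^ 2 + b ^ 2) ^ m := by
  rw [← det_submatrix_equiv_self (finProdFinEquiv (m := 2) (n := m))]
  have h : (a • 1 + b • skew F m (2 * m)).submatrix finProdFinEquiv finProdFinEquiv =
      blockDiagonal fun _ : Fin m => !![a, -b; b, a] := by
    ext ⟨x, k⟩ ⟨y, l⟩
    have := k.isLt
    have := l.isLt
    simp only [submatrix_apply, Matrix.add_apply, Matrix.smul_apply, one_apply, skew, of_apply,
      blockDiagonal_apply, Fin.ext_iff, finProdFinEquiv_apply_val, smul_eq_mul]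
    fin_cases x <;> fin_cases y <;> simp <;> split_ifs <;> first | omega | simp
  rw [h, det_blockDiagonal]
  simp [det_fin_two_of, sq]

/-- A scalar of determinant one is a commutator. -/
theorem scalar_isComm [Fintype F] {n : ℕ} {l : F} (hl : l ^ (n + 1) = 1) :
    ∃ A B : Matrix (Fin (n + 1)) (Fin (n + 1)) F,
      A.det = 1 ∧ B.det = 1 ∧ A * B = l • (B * A) := by
  by_cases hd : (powDiag l (n + 1)).det = 1
  · exact ⟨_, _, hd, det_cyc n, powDiag_mul_cyc hl⟩
  have hdet : (powDiag l (n + 1)).det = l ^ (∑ i ∈ Finset.range (n + 1), i) := by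
    rw [powDiag, det_diagonal, Finset.prod_pow_eq_pow_sum,
      Fin.sum_univ_eq_sum_range (fun i => i)]
  rcases Nat.even_or_odd (n + 1) with ⟨m, hm⟩ | ⟨m, hm⟩
  swap
  · refine absurd ?_ hd
    rw [hdet, Finset.sum_range_id, Nat.add_sub_cancel,
      show n = 2 * m by omega, show (2 * m + 1) * (2 * m) / 2 = (2 * m + 1) * m by
        rw [Nat.mul_div_assoc _ (dvd_mul_right 2 m), Nat.mul_div_cancel_left _ two_pos],
      show 2 * m + 1 = n + 1 by omega, pow_mul, hl, one_pow]
  have hsum : (∑ i ∈ Finset.range (n + 1), i) = m * n := by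
    rw [Finset.sum_range_id, Nat.add_sub_cancel, hm, show (m + m) * n = 2 * (m * n) by ring,
      Nat.mul_div_cancel_left _ two_pos]
  have hm2 : l ^ m * l ^ m = 1 := by rw [← pow_add, ← hm, hl]
  have hlm : l ^ m = -1 := by
    rcases mul_self_eq_one_iff.1 hm2 with h | h
    · exact absurd (by rw [hdet, hsum, pow_mul, h, one_pow]) hd
    · exact h
  have hodd : Fintype.card F % 2 = 1 := by
    by_contra h
    have hc : ringChar F = 2 := FiniteField.even_card_iff_char_two.2 (by omega)
    haveI : CharP F 2 := ringChar.of_eq hc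
    exact hd (by rw [hdet, hsum, pow_mul, hlm, CharTwo.neg_eq, one_pow])
  obtain ⟨a, b, hab⟩ := FiniteField.exists_root_sum_quadratic (R := F) (f := Polynomial.X ^ 2)
    (g := Polynomial.X ^ 2 - Polynomial.C l) (by simp)
    (Polynomial.degree_X_pow_sub_C two_pos _) hodd
  simp only [Polynomial.eval_pow, Polynomial.eval_X, Polynomial.eval_sub, Polynomial.eval_C,
    ← add_sub_assoc, sub_eq_zero] at hab
  have he : ((-1 : F) ^ n) = -1 := Odd.neg_one_pow ⟨m - 1, by omega⟩
  have hZ := skew_mul_cyc (F := F) (m := m) (n := n) (by omega)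
  set Y := a • (1 : Matrix (Fin (n + 1)) (Fin (n + 1)) F) + b • skew F m (n + 1) with hY
  have hYd : Y.det = -1 := by
    have h2 := det_skew_comb (F := F) (m := m) a b
    rw [show 2 * m = n + 1 by omega, hab, hlm] at h2
    exact h2
  have hC : Y * cyc n (-1) = cyc n (-1) * Y := by
    rw [hY, add_mul, mul_add, smul_mul, mul_smul_comm, smul_mul, mul_smul_comm, one_mul, mul_one,
      hZ]
  refine ⟨powDiag l (n + 1) * Y, cyc n (-1), ?_, ?_, ?_⟩
  · rw [det_mul, hdet, hsum, pow_mul, hlm, hYd, he]; simp
  · have := det_cyc (F := F) n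
    rwa [he] at this
  · rw [mul_assoc, hC, ← mul_assoc, powDiag_mul_cyc hl, smul_mul, mul_assoc]

end Cfsg.Agent.H87.Ore
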