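import Cfsg.Agent.H87.Ore.Small
import Cfsg.Agent.H87.Ore.Scalar

/-!
Every matrix of determinant one is a commutator.
-/

set_option autoImplicit false

namespace Cfsg.Agent.H87.Ore

open Polynomial Module

universe u v

variable {F : Type u} [Field F] [Fintype F]

/-- The data needed from the base polynomial. -/
def Seed (F : Type u) [Field F] [Fintype F] (g : F[X]) : Prop :=
  g.Monic ∧ g.eval 1 ≠ 0 ∧ Sep g ∧ DegOK F g ∧ BaseOK.{u, v} F g ∧
    (-1) ^ g.natDegree * g.eval 0 = 1 ∧
    ((∀ a : F, a ≠ 0 → a = 1) ∨ ∃ lam h, g = (X - C lam) * h ∧ h.eval lam ≠ 0 ∧ lam ≠ 1)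

omit [Fintype F] in
lemma not_dvd_X_sub_one {P : F[X]} (hP : 2 ≤ P.natDegree) : ¬ P ∣ X - 1 := fun h => by
  have h1 := natDegree_le_of_dvd h (by simpa using X_sub_C_ne_zero (1 : F))
  rw [show (X - 1 : F[X]).natDegree = 1 by simpa using natDegree_X_sub_C (1 : F)] at h1
  omega

omit [Fintype F] in
lemma coprime_of_not_dvd {P a : F[X]} (hP : Irreducible P) (h : ¬ P ∣ a) : IsCoprime a P :=
  ((hP.coprime_iff_not_dvd).2 h).symm

/-- At least four elements. -/
lemma seed_big (hq : 4 ≤ Fintype.card F) : ∃ g : F[X], Seed.{u, v} F g ∧ g.natDegree = 2 := by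
  classical
  obtain ⟨l, hl0, hl1, hl2⟩ : ∃ l : F, l ≠ 0 ∧ l ≠ 1 ∧ l ≠ -1 := by
    by_contra h
    push Not at h
    have hsub : (Finset.univ : Finset F) ⊆ {0, 1, -1} := fun x _ => by
      simp only [Finset.mem_insert, Finset.mem_singleton]
      by_cases h0 : x = 0
      · exact Or.inl h0
      by_cases h1 : x = 1
      · exact Or.inr (Or.inl h1)
      exact Or.inr (Or.inr (h x h0 h1))
    have := Finset.card_le_card hsub
    rw [Finset.card_univ] at this
    have := Finset.card_le_three (a := (0 : F)) (b := 1) (c := -1)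
    omega
  have hll : l ≠ l⁻¹ := fun h => by
    have h2 : l * l = 1 := by
      calc l * l = l * l⁻¹ := by rw [← h]
        _ = 1 := mul_inv_cancel₀ hl0
    exact (mul_self_eq_one_iff.1 h2).elim hl1 hl2
  have hi1 : l⁻¹ ≠ 1 := fun h => hl1 (inv_eq_one.1 h)
  have hd : ((X - C l) * (X - C l⁻¹)).natDegree = 2 := by
    rw [natDegree_mul (X_sub_C_ne_zero l) (X_sub_C_ne_zero _), natDegree_X_sub_C,
      natDegree_X_sub_C]
  refine ⟨_, ⟨(monic_X_sub_C l).mul (monic_X_sub_C _), ?_,
    ⟨{X - C l, X - C l⁻¹}, ?_, ?_, ?_⟩, ⟨hd.ge, fun h => by omega, fun h => by omega⟩, ?_, ?_,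
    Or.inr ⟨l, X - C l⁻¹, rfl, by simpa [sub_eq_zero] using hll, hl1⟩⟩, hd⟩
  · simp [sub_eq_zero, Ne.symm hl1, Ne.symm hi1]
  · exact lt_of_le_of_lt Finset.card_le_two (by omega)
  · intro P hP
    simp only [Finset.mem_insert, Finset.mem_singleton] at hP
    rcases hP with rfl | rfl
    · refine ⟨prime_X_sub_C l, fun h => hl1 ?_⟩
      obtain ⟨c, hc⟩ := h
      simpa [sub_eq_zero] using congrArg (eval l) hc
    · refine ⟨prime_X_sub_C _, fun h => hi1 ?_⟩
      obtain ⟨c, hc⟩ := h
      simpa [sub_eq_zero] using congrArg (eval l⁻¹) hc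
  · exact fun a ha => (coprime_of_not_dvd (irreducible_X_sub_C l) (ha _ (by simp))).mul_right
      (coprime_of_not_dvd (irreducible_X_sub_C _) (ha _ (by simp)))
  · intro V _ _ _ hV S hS hscal
    exact gpair_two hl0 hll (hV.trans hd) hS hscal
  · rw [hd]; simp [hl0]

/-- Three elements. -/
lemma seed_three (hq : Fintype.card F = 3) : ∃ g : F[X], Seed.{u, v} F g ∧ g.natDegree = 3 := by
  classical
  obtain ⟨hch, hdig⟩ := exists_digit (F := F) Nat.prime_three hq
  have h3 : (3 : F) = 0 := by simpa using CharP.cast_eq_zero F 3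
  have hd1 : (X - C (-1 : F)).natDegree = 1 := natDegree_X_sub_C _
  have hd2 : (X ^ 2 + X - 1 : F[X]).natDegree = 2 := by compute_degree!
  have hm2 : (X ^ 2 + X - 1 : F[X]).Monic := by monicity!
  have hirr : Irreducible (X ^ 2 + X - 1 : F[X]) := by
    refine irreducible_of_degree_le_three_of_not_isRoot (by rw [hd2]; simp) fun x hx => ?_
    obtain ⟨k, hk, rfl⟩ := hdig x
    simp only [IsRoot, eval_sub, eval_add, eval_pow, eval_X, eval_one] at hx
    interval_cases k
    · norm_num at hx
    · norm_num at hx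
    · norm_num at hx
      exact one_ne_zero (α := F) (by linear_combination 2 * h3 - hx)
  have hd : ((X - C (-1 : F)) * (X ^ 2 + X - 1)).natDegree = 3 := by
    rw [(monic_X_sub_C _).natDegree_mul hm2, hd1, hd2]
  have h1 : (-1 : F) ≠ 1 := fun h => one_ne_zero (α := F) (by linear_combination h3 + h)
  refine ⟨_, ⟨(monic_X_sub_C _).mul hm2, ?_,
    ⟨{X - C (-1), X ^ 2 + X - 1}, ?_, ?_, ?_⟩,
    ⟨by omega, fun _ => by omega, fun h => by omega⟩, ?_, ?_,
    Or.inr ⟨-1, _, rfl, by simp, h1⟩⟩, hd⟩
  · simp only [eval_mul, eval_sub, eval_add, eval_pow, eval_X, eval_C, eval_one]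
    ring_nf
    intro h
    exact one_ne_zero (α := F) (by linear_combination h3 - h)
  · exact lt_of_le_of_lt Finset.card_le_two (by omega)
  · intro P hP
    simp only [Finset.mem_insert, Finset.mem_singleton] at hP
    rcases hP with rfl | rfl
    · refine ⟨prime_X_sub_C _, fun h => h1 ?_⟩
      obtain ⟨c, hc⟩ := h
      have h2 := congrArg (eval (-1 : F)) hc
      simp only [eval_mul, eval_sub, eval_X, eval_C, eval_one, sub_self, zero_mul] at h2
      exact sub_eq_zero.1 h2
    · exact ⟨hirr.prime, not_dvd_X_sub_one hd2.ge⟩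
  · exact fun a ha => (coprime_of_not_dvd (irreducible_X_sub_C _) (ha _ (by simp))).mul_right
      (coprime_of_not_dvd hirr (ha _ (by simp)))
  · intro V _ _ _ hV S hS hscal
    have h := gpair_three (Or.inr rfl) hq covered33 (c := ![1, 0, 1])
      (by ext i j; fin_cases i <;> fin_cases j <;> simp [toM, ent])
      (by ext i j; fin_cases i <;> fin_cases j <;> simp [toM, ent, comp]) (hV.trans hd) hS hscal
    convert h using 1
    have hC : (3 : F[X]) = 0 := by rw [← C_ofNat, h3, map_zero]
    simp [Fin.sum_univ_three]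
    linear_combination (X ^ 2 : F[X]) * hC
  · rw [hd]; norm_num

/-- Two elements. -/
lemma seed_two (hq : Fintype.card F = 2) : ∃ g : F[X], Seed.{u, v} F g ∧ g.natDegree = 4 := by
  classical
  obtain ⟨hch, hdig⟩ := exists_digit (F := F) Nat.prime_two hq
  have hall : ∀ a : F, a = 0 ∨ a = 1 := fun a => by
    obtain ⟨k, hk, rfl⟩ := hdig a
    interval_cases k <;> simp
  have hd2 : (X ^ 2 + X + 1 : F[X]).natDegree = 2 := by compute_degree!
  have hm2 : (X ^ 2 + X + 1 : F[X]).Monic := by monicity!
  have hirr : Irreducible (X ^ 2 + X + 1 : F[X]) := by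
    refine irreducible_of_degree_le_three_of_not_isRoot (by rw [hd2]; simp) fun x hx => ?_
    rcases hall x with rfl | rfl <;> simp [CharTwo.add_self_eq_zero] at hx
  have hd : ((X ^ 2 + X + 1) * (X ^ 2 + X + 1) : F[X]).natDegree = 4 := by
    rw [hm2.natDegree_mul hm2, hd2]
  refine ⟨_, ⟨hm2.mul hm2, ?_, ⟨{X ^ 2 + X + 1}, ?_, ?_, ?_⟩,
    ⟨by omega, fun _ => by omega, fun _ => by omega⟩, ?_, ?_,
    Or.inl fun a ha => (hall a).resolve_left ha⟩, hd⟩
  · simp [CharTwo.add_self_eq_zero]
  · rw [Finset.card_singleton]; omega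
  · intro P hP
    rw [Finset.mem_singleton] at hP
    subst hP
    exact ⟨hirr.prime, not_dvd_X_sub_one hd2.ge⟩
  · exact fun a ha => (coprime_of_not_dvd hirr (ha _ (by simp))).mul_right
      (coprime_of_not_dvd hirr (ha _ (by simp)))
  · intro V _ _ _ hV S hS hscal
    have h := gpair_four hq covered42 (c := ![1, 0, 1, 0])
      (by ext i j; fin_cases i <;> fin_cases j <;> simp [toM, ent])
      (by ext i j; fin_cases i <;> fin_cases j <;> simp [toM, ent, comp]) (hV.trans hd) hS hscal
    convert h using 1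
    have hC : (2 : F[X]) = 0 := CharTwo.two_eq_zero
    simp [Fin.sum_univ_four]
    linear_combination (X ^ 3 + 2 * X ^ 2 + X + 1 : F[X]) * hC
  · rw [hd]; norm_num

variable {V : Type v} [AddCommGroup V] [Module F V] [FiniteDimensional F V]

/-- A transvection in dimension at least three. -/
lemma isComm_transvection (hV : 3 ≤ finrank F V) {ξ : Module.Dual F V} {x : V} (hx0 : x ≠ 0)
    (hξ : ξ x = 0) : IsComm (LinearMap.transvection ξ x) := by
  obtain ⟨y, hy, hyx⟩ : ∃ y, ξ y = 0 ∧ y ∉ Submodule.span F {x} := by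
    by_contra h
    push Not at h
    have h1 := Submodule.finrank_mono (show LinearMap.ker ξ ≤ Submodule.span F {x} from h)
    rw [finrank_span_singleton hx0] at h1
    have h2 := LinearMap.finrank_range_add_finrank_ker ξ
    have h3 := (Submodule.finrank_le (LinearMap.range ξ)).trans (le_of_eq (Module.finrank_self F))
    omega
  obtain ⟨η, hηy, hη⟩ := exists_dual_one hyx
  have hηx : η x = 0 := hη x (Submodule.mem_span_singleton_self x)
  refine ⟨LinearMap.transvection η x, LinearMap.transvection ξ y,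
    by rw [LinearMap.transvection.det, hηx, add_zero],
    by rw [LinearMap.transvection.det, hy, add_zero], LinearMap.ext fun z => ?_⟩
  simp only [Module.End.mul_apply, LinearMap.transvection.apply, map_add, map_smul, hξ, hy, hηx,
    hηy, smul_eq_mul, mul_zero, mul_one, add_zero, zero_smul]
  module

omit [Fintype F] in
lemma isComm_one : IsComm (1 : Module.End F V) := ⟨1, 1, by simp, by simp, by simp⟩

/-- Operators of determinant one which are not scalars other than one. -/
theorem isComm_of_not_scalar (hn : 2 ≤ finrank F V)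
    (hex : finrank F V = 2 → 4 ≤ Fintype.card F) {S : Module.End F V} (hS : LinearMap.det S = 1)
    (hscal : ∀ a : F, S = a • 1 → a = 1) : IsComm S := by
  classical
  obtain ⟨g, ⟨hg, hg1, hsep, hdeg, hbase, hdet, hfix⟩, hd, hq⟩ :
      ∃ g : F[X], Seed.{u, v} F g ∧ (g.natDegree ≤ finrank F V ∨
        Fintype.card F = 2 ∧ finrank F V = 3) ∧ g.natDegree ≤ 4 := by
    rcases (by have := Fintype.one_lt_card (α := F); omega :
      4 ≤ Fintype.card F ∨ Fintype.card F = 3 ∨ Fintype.card F = 2) with h | h | h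
    · obtain ⟨g, h1, h2⟩ := seed_big.{u, v} h
      exact ⟨g, h1, Or.inl (by omega), by omega⟩
    · obtain ⟨g, h1, h2⟩ := seed_three.{u, v} h
      refine ⟨g, h1, Or.inl ?_, by omega⟩
      by_contra
      have := hex (by omega)
      omega
    · obtain ⟨g, h1, h2⟩ := seed_two.{u, v} h
      refine ⟨g, h1, ?_, by omega⟩
      rcases (by omega : 4 ≤ finrank F V ∨ finrank F V ≤ 3) with h4 | h4
      · exact Or.inl (by omega)
      · refine Or.inr ⟨h, ?_⟩
        by_contra
        have := hex (by omega)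
        omega
  rcases hd with hd | ⟨hq2, hn3⟩
  swap
  · -- two elements, dimension three
    obtain ⟨hch, hdig⟩ := exists_digit (F := F) Nat.prime_two hq2
    have hd3 : (X ^ 3 + 1 : F[X]).natDegree = 3 := by compute_degree!
    refine isComm_of_pair (by monicity!) (hd3.trans hn3.symm) ?_ (Or.inl fun a ha => ?_)
      (base_32 hq2 hn3 hS)
    · rw [hd3]; simp [CharTwo.neg_eq]
    · obtain ⟨k, hk, rfl⟩ := hdig a
      interval_cases k <;> simp at ha ⊢
  obtain ⟨k, hk⟩ := Nat.exists_eq_add_of_le hd
  rcases Nat.eq_zero_or_pos k with rfl | hkpos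
  · refine isComm_of_pair hg (by omega) hdet ?_ (hbase V (by omega) S hS hscal)
    rcases hfix with h | ⟨l, h, h1, h2, -⟩
    exacts [Or.inl h, Or.inr ⟨l, h, h1, h2⟩]
  obtain ⟨k, rfl⟩ := Nat.exists_eq_succ_of_ne_zero hkpos.ne'
  have hd2 : 2 ≤ g.natDegree := hdeg.1
  by_cases hr : 2 ≤ finrank F (LinearMap.range (S - 1))
  · have hns : ∀ l : F, S ≠ l • 1 := fun l hl => by
      rw [hl, hscal l hl, one_smul, sub_self, LinearMap.range_zero, finrank_bot] at hr
      omega
    haveI : Nontrivial V := Module.nontrivial_of_finrank_pos (R := F) (by omega)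
    obtain ⟨c, hc⟩ := exists_ne (0 : V)
    obtain ⟨b, hb⟩ := exists_dual_one (p := (⊥ : Submodule F V)) (x := c) (by simpa using hc)
    obtain ⟨L, G, h1, h2, h3, -, -⟩ := tail hg hg1 hsep hdeg hbase k V (by omega) S hS hr hns c hc b
      (fun h => one_ne_zero (α := F) (by rw [← hb.1, h]; rfl))
    have hm1 : (X - 1 : F[X]).Monic := by simpa using monic_X_sub_C (1 : F)
    refine isComm_of_pair (hg.mul (hm1.pow _)) (by rw [natDegree_tail hg]; omega) ?_ ?_
      ⟨L, G, h1, h2, h3⟩
    · rw [natDegree_tail hg, pow_add, eval_mul, eval_pow, eval_sub, eval_X, eval_one, zero_sub,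
        mul_mul_mul_comm, hdet, ← mul_pow]
      simp
    · rcases hfix with h | ⟨l, h, h1, h2, h3⟩
      · exact Or.inl h
      · exact Or.inr ⟨l, h * (X - 1) ^ (k + 1), by rw [h1]; ring, by
          simp [h2, sub_eq_zero, h3]⟩
  · -- rank at most one
    by_cases hS1 : S = 1
    · rw [hS1]; exact isComm_one
    obtain ⟨z, hz⟩ : ∃ z, (S - 1) z ≠ 0 := by
      by_contra h
      push Not at h
      exact hS1 (sub_eq_zero.1 (LinearMap.ext fun z => h z))
    set x := (S - 1) z
    have hspan : LinearMap.range (S - 1) = Submodule.span F {x} :=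
      (Submodule.eq_of_le_of_finrank_le ((Submodule.span_singleton_le_iff_mem _ _).2 (LinearMap.mem_range_self (S - 1) z))
        (by rw [finrank_span_singleton hz]; omega)).symm
    have hxy : ∀ y, ∃ t : F, t • x = (S - 1) y := fun y =>
      Submodule.mem_span_singleton.1 (hspan ▸ LinearMap.mem_range_self (S - 1) y)
    choose t ht using hxy
    let ξ : Module.Dual F V :=
      { toFun := t
        map_add' := fun a b => smul_left_injective F hz (by simp only [add_smul, ht, map_add])
        map_smul' := fun a b => smul_left_injective F hz (by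
          simp only [RingHom.id_apply, smul_eq_mul, mul_smul, ht, map_smul]) }
    have hξ : S = LinearMap.transvection ξ x := LinearMap.ext fun y => by
      rw [LinearMap.transvection.apply, show ξ y • x = (S - 1) y from ht y, LinearMap.sub_apply,
        Module.End.one_apply, add_sub_cancel]
    rw [hξ] at hS ⊢
    rw [LinearMap.transvection.det] at hS
    exact isComm_transvection (by omega) hz (by linear_combination hS)

end Cfsg.Agent.H87.Ore
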