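import Cfsg.Agent.H87.Ore.Tbl

/-!
Certificates for `SL_3(2)`.
-/

set_option autoImplicit false

namespace Cfsg.Agent.H87.Ore

/-- Certificates, part 0. -/
def w320 : List Wit := [
  .bad,
  .bad,
  .bad,
  .bad,
  .bad,
  .bad,
  .bad,
  .bad,
  .bad,
  .bad,
  .bad,
  .bad,
  .pair 174 117 340 85 498 206,
  .pair 140 85 84 84 478 445,
  .pair 159 93 212 86 214 214,
  .pair 140 87 84 84 460 122,
  .bad,
  .bad,
  .bad,
  .bad,
  .bad,
  .bad,
  .bad,
  .bad,
  .bad,
  .bad,
  .bad,
  .bad,
  .pair 410 459 372 93 380 117,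
  .pair 140 213 84 84 334 442,
  .pair 410 331 372 93 358 158,
  .pair 140 215 84 84 348 125,
  .bad,
  .pair 410 372 372 93 242 205,
  .bad,
  .pair 174 271 340 85 458 458,
  .bad,
  .pair 444 93 116 92 214 214,
  .bad,
  .pair 174 299 340 85 206 498]

/-- All certificates. -/
def w32 : List Wit := [w320].flatten

set_option maxRecDepth 100000 in
theorem covered32 : covered 2 3 273 98 (redCases 2 3) w32 = true := by
  decide +kernel

end Cfsg.Agent.H87.Ore
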