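import Cfsg.Agent.H87.Ore.Base
import Cfsg.Agent.H87.Ore.T32
import Cfsg.Agent.H87.Ore.T33
import Cfsg.Agent.H87.Ore.T42

/-!
The tabulated base cases.
-/

set_option autoImplicit false

namespace Cfsg.Agent.H87.Ore

open Polynomial Module

universe u v

variable {F : Type u} [Field F] {V : Type v} [AddCommGroup V] [Module F V]
  [FiniteDimensional F V]

/-- A basis adapted to a map which is not scalar. -/
lemma exists_basis_three (hV : 3 ≤ finrank F V) {S : Module.End F V}
    (hns : ∀ l : F, S ≠ l • 1) :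
    ∃ v x : V, LinearIndependent F ![v, S v, x] ∧
      (S (S v) = x ∨ S (S v) ∈ Submodule.span F (Set.range ![v, S v])) := by
  obtain ⟨v, hv⟩ := exists_not_eigen hns
  have e : ∀ x, Fin.snoc ![v, S v] x = ![v, S v, x] := fun x => by
    funext i; fin_cases i <;> rfl
  by_cases h : S (S v) ∈ Submodule.span F (Set.range ![v, S v])
  · obtain ⟨x, hx⟩ : ∃ x, x ∉ Submodule.span F (Set.range ![v, S v]) := by
      by_contra hcon
      push Not at hcon
      have h1 : Submodule.span F (Set.range ![v, S v]) = ⊤ := eq_top_iff.2 fun y _ => hcon y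
      have h2 := finrank_span_eq_card hv
      rw [h1, finrank_top, Fintype.card_fin] at h2
      omega
    exact ⟨v, x, e x ▸ linearIndependent_finSnoc.2 ⟨hv, hx⟩, Or.inr h⟩
  · exact ⟨v, _, e _ ▸ linearIndependent_finSnoc.2 ⟨hv, h⟩, Or.inl rfl⟩

/-- Shape of the matrix in an adapted basis. -/
lemma adapted_shape {m : ℕ} (b : Basis (Fin (m + 3)) F V) {S : Module.End F V}
    (h0 : S (b 0) = b 1)
    (h1 : S (b 1) = b 2 ∨ S (b 1) ∈ Submodule.span F (Set.range ![b 0, b 1])) :
    (∀ i, LinearMap.toMatrix b b S i 0 = if i = 1 then 1 else 0) ∧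
    ((∀ i, LinearMap.toMatrix b b S i 1 = if i = 2 then 1 else 0) ∨
      ∀ i : Fin (m + 3), 2 ≤ (i : ℕ) → LinearMap.toMatrix b b S i 1 = 0) := by
  refine ⟨fun i => ?_, ?_⟩
  · rw [LinearMap.toMatrix_apply, h0, b.repr_self, Finsupp.single_apply]
    simp [eq_comm]
  rcases h1 with h1 | h1
  · refine Or.inl fun i => ?_
    rw [LinearMap.toMatrix_apply, h1, b.repr_self, Finsupp.single_apply]
    simp [eq_comm]
  · refine Or.inr fun i hi => ?_
    rw [show (![b 0, b 1] : Fin 2 → V) = fun k => ![b 0, b 1] k from rfl] at h1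
    obtain ⟨f, hf⟩ := Submodule.mem_span_range_iff_exists_fun F |>.1 h1
    rw [LinearMap.toMatrix_apply, ← hf, Fin.sum_univ_two]
    have i0 : i ≠ 0 := fun h => by simp [h] at hi
    have i1 : i ≠ 1 := fun h => by simp [h] at hi
    simp [Finsupp.single_apply, i0.symm, i1.symm]

variable [Fintype F]

lemma exists_digit {p : ℕ} (hp : p.Prime) (hF : Fintype.card F = p) :
    CharP F p ∧ ∀ x : F, ∃ d : ℕ, d < p ∧ (d : F) = x := by
  have := Fact.mk hp
  have e : ZMod p ≃+* F := ZMod.ringEquivOfPrime F hp hF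
  haveI : CharP F p := charP_of_injective_ringHom e.toRingHom.injective p
  refine ⟨inferInstance, fun x => ⟨(e.symm x).val, ZMod.val_lt _, ?_⟩⟩
  rw [← map_natCast e, ZMod.natCast_zmod_val, RingEquiv.apply_symm_apply]

lemma mem_redCases {p n c r : ℕ} (hc : c ≤ p ^ 2) (hr : r < p ^ (n * (n - 2))) :
    p + p ^ n * (c + p ^ n * r) ∈ redCases p n :=
  List.mem_flatMap.2 ⟨c, List.mem_range.2 (by omega), List.mem_map.2 ⟨r, List.mem_range.2 hr, rfl⟩⟩

/-- Dimension three over a prime field with at most three elements. -/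
theorem gpair_three {p one cc : ℕ} (hp : p = 2 ∨ p = 3) (hF : Fintype.card F = p) {ws : List Wit}
    (hcov : covered p 3 one cc (redCases p 3) ws = true) {c : Fin 3 → F}
    (hone : toM F p 3 one = 1) (hcc : toM F p 3 cc = comp c) (hV : finrank F V = 3)
    {S : Module.End F V} (hS : LinearMap.det S = 1) (hscal : ∀ a : F, S = a • 1 → a = 1) :
    GPair (X ^ 3 - ∑ i, C (c i) * X ^ (i : ℕ)) S := by
  obtain ⟨_, hd⟩ := exists_digit (F := F) (p := p)
    (by rcases hp with rfl | rfl <;> norm_num) hF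
  by_cases hns : ∀ a : F, S ≠ a • 1
  · obtain ⟨v, x, hli, hx⟩ := exists_basis_three hV.ge hns
    let b : Basis (Fin 3) F V := basisOfLinearIndependentOfCardEqFinrank hli (by simp [hV])
    have hb : ∀ i, b i = ![v, S v, x] i := fun i => by simp [b]
    obtain ⟨hc0, hc1⟩ := adapted_shape (m := 0) b (S := S) (by simp [hb]) (by simpa [hb] using hx)
    choose d hdp hdF using hd
    set M := LinearMap.toMatrix b b S with hM
    obtain ⟨c1, hc1p, e1⟩ : ∃ c1, c1 ≤ p ^ 2 ∧ ∀ i : Fin 3, (c1 / p ^ (i : ℕ) % p : ℕ) = M i 1 := by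
      rcases hc1 with h | h
      · refine ⟨p ^ 2, le_rfl, fun i => ?_⟩
        rw [h i]
        obtain rfl|rfl|rfl : i = 0 ∨ i = 1 ∨ i = 2 := (by fin_cases i <;> simp) <;> rcases hp with rfl | rfl <;> simp
      · refine ⟨d (M 0 1) + p * d (M 1 1), ?_, fun i => ?_⟩
        · have := hdp (M 0 1); have := hdp (M 1 1)
          rcases hp with rfl | rfl <;> simp only [Nat.reducePow] <;> omega
        · have := hdp (M 0 1); have := hdp (M 1 1)
          obtain rfl|rfl|rfl : i = 0 ∨ i = 1 ∨ i = 2 := (by fin_cases i <;> simp)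
          · rw [show (d (M 0 1) + p * d (M 1 1)) / p ^ ((0 : Fin 3) : ℕ) % p = d (M 0 1) by
              rcases hp with rfl | rfl <;> simp <;> omega]
            exact hdF _
          · rw [show (d (M 0 1) + p * d (M 1 1)) / p ^ ((1 : Fin 3) : ℕ) % p = d (M 1 1) by
              rcases hp with rfl | rfl <;> simp <;> omega]
            exact hdF _
          · rw [show (d (M 0 1) + p * d (M 1 1)) / p ^ ((2 : Fin 3) : ℕ) % p = 0 by
              rcases hp with rfl | rfl <;> simp <;> omega, Nat.cast_zero]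
            exact (h 2 (by simp)).symm
    set r := d (M 0 2) + p * (d (M 1 2) + p * d (M 2 2)) with hr
    have hrp : r < p ^ (3 * (3 - 2)) := by
      have := hdp (M 0 2); have := hdp (M 1 2); have := hdp (M 2 2)
      rcases hp with rfl | rfl <;> simp [hr] <;> omega
    obtain ⟨w, hw⟩ := exists_ok_of_covered hcov _ (mem_redCases hc1p hrp)
    have hs : M = toM F p 3 (p + p ^ 3 * (c1 + p ^ 3 * r)) := by
      have := hdp (M 0 2); have := hdp (M 1 2); have := hdp (M 2 2)
      ext i j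
      simp only [toM, ent, Matrix.of_apply]
      have hi := i.isLt
      obtain rfl|rfl|rfl : j = 0 ∨ j = 1 ∨ j = 2 := (by fin_cases j <;> simp)
      · rw [show (p + p ^ 3 * (c1 + p ^ 3 * r)) / p ^ (3 * ((0 : Fin 3) : ℕ) + i) % p =
            p / p ^ (i : ℕ) % p by
          obtain rfl|rfl|rfl : i = 0 ∨ i = 1 ∨ i = 2 := (by fin_cases i <;> simp) <;> rcases hp with rfl | rfl <;> simp <;> omega]
        refine (hc0 i).trans ?_
        obtain rfl|rfl|rfl : i = 0 ∨ i = 1 ∨ i = 2 := (by fin_cases i <;> simp) <;> rcases hp with rfl | rfl <;> simp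
      · rw [show (p + p ^ 3 * (c1 + p ^ 3 * r)) / p ^ (3 * ((1 : Fin 3) : ℕ) + i) % p =
            c1 / p ^ (i : ℕ) % p by
          obtain rfl|rfl|rfl : i = 0 ∨ i = 1 ∨ i = 2 := (by fin_cases i <;> simp) <;> rcases hp with rfl | rfl <;> simp at hc1p ⊢ <;> omega]
        exact (e1 i).symm
      · rw [show (p + p ^ 3 * (c1 + p ^ 3 * r)) / p ^ (3 * ((2 : Fin 3) : ℕ) + i) % p =
            r / p ^ (i : ℕ) % p by
          obtain rfl|rfl|rfl : i = 0 ∨ i = 1 ∨ i = 2 := (by fin_cases i <;> simp) <;> rcases hp with rfl | rfl <;> simp at hc1p ⊢ <;> omega]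
        obtain rfl|rfl|rfl : i = 0 ∨ i = 1 ∨ i = 2 := (by fin_cases i <;> simp)
        · rw [show r / p ^ ((0 : Fin 3) : ℕ) % p = d (M 0 2) by
            rcases hp with rfl | rfl <;> simp [hr] <;> omega]
          exact (hdF _).symm
        · rw [show r / p ^ ((1 : Fin 3) : ℕ) % p = d (M 1 2) by
            rcases hp with rfl | rfl <;> simp [hr] <;> omega]
          exact (hdF _).symm
        · rw [show r / p ^ ((2 : Fin 3) : ℕ) % p = d (M 2 2) by
            rcases hp with rfl | rfl <;> simp [hr] <;> omega]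
          exact (hdF _).symm
    exact gpair_of_ok (n := 2) b hS hs hone hcc hw
  · push Not at hns
    obtain ⟨a, ha⟩ := hns
    obtain rfl := hscal a ha
    let b : Basis (Fin 3) F V := Module.finBasisOfFinrankEq F V hV
    have hg : Good (X ^ 3 - ∑ i, C (c i) * X ^ (i : ℕ)) (Matrix.toLin b b (comp c)) :=
      good_of_comp (n := 2) b (Q := 1) (Qi := 1) (mul_one 1) (by rw [mul_one, one_mul])
    exact ⟨_, _, hg, hg, by rw [ha, one_smul, one_mul]⟩

set_option maxHeartbeats 2000000 in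
/-- Dimension four over two elements. -/
theorem gpair_four {one cc : ℕ} (hF : Fintype.card F = 2) {ws : List Wit}
    (hcov : covered 2 4 one cc (redCases 2 4) ws = true) {c : Fin 4 → F}
    (hone : toM F 2 4 one = 1) (hcc : toM F 2 4 cc = comp c) (hV : finrank F V = 4)
    {S : Module.End F V} (hS : LinearMap.det S = 1) (hscal : ∀ a : F, S = a • 1 → a = 1) :
    GPair (X ^ 4 - ∑ i, C (c i) * X ^ (i : ℕ)) S := by
  obtain ⟨_, hd⟩ := exists_digit (F := F) Nat.prime_two hF
  by_cases hns : ∀ a : F, S ≠ a • 1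
  · obtain ⟨v, x, hli, hx⟩ := exists_basis_three (by omega) hns
    obtain ⟨y, hy⟩ : ∃ y, y ∉ Submodule.span F (Set.range ![v, S v, x]) := by
      by_contra hcon
      push Not at hcon
      have h1 : Submodule.span F (Set.range ![v, S v, x]) = ⊤ := eq_top_iff.2 fun y _ => hcon y
      have h2 := finrank_span_eq_card hli
      rw [h1, finrank_top, Fintype.card_fin] at h2
      omega
    have hli4 : LinearIndependent F ![v, S v, x, y] := by
      have e : Fin.snoc ![v, S v, x] y = ![v, S v, x, y] := by funext i; obtain rfl|rfl|rfl|rfl : i = 0 ∨ i = 1 ∨ i = 2 ∨ i = 3 := (by fin_cases i <;> simp) <;> rfl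
      exact e ▸ linearIndependent_finSnoc.2 ⟨hli, hy⟩
    let b : Basis (Fin 4) F V := basisOfLinearIndependentOfCardEqFinrank hli4 (by simp [hV])
    have hb : ∀ i, b i = ![v, S v, x, y] i := fun i => by simp [b]
    obtain ⟨hc0, hc1⟩ := adapted_shape (m := 1) b (S := S) (by simp [hb]) (by simpa [hb] using hx)
    choose d hdp hdF using hd
    set M := LinearMap.toMatrix b b S with hM
    obtain ⟨c1, hc1p, e1⟩ : ∃ c1, c1 ≤ 2 ^ 2 ∧ ∀ i : Fin 4, (c1 / 2 ^ (i : ℕ) % 2 : ℕ) = M i 1 := by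
      rcases hc1 with h | h
      · refine ⟨2 ^ 2, le_rfl, fun i => ?_⟩
        rw [h i]
        obtain rfl|rfl|rfl|rfl : i = 0 ∨ i = 1 ∨ i = 2 ∨ i = 3 := (by fin_cases i <;> simp) <;> simp
      · have := hdp (M 0 1); have := hdp (M 1 1)
        refine ⟨d (M 0 1) + 2 * d (M 1 1), by omega, fun i => ?_⟩
        obtain rfl|rfl|rfl|rfl : i = 0 ∨ i = 1 ∨ i = 2 ∨ i = 3 := (by fin_cases i <;> simp)
        · rw [show (d (M 0 1) + 2 * d (M 1 1)) / 2 ^ ((0 : Fin 4) : ℕ) % 2 = d (M 0 1) by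
            simp; omega]
          exact hdF _
        · rw [show (d (M 0 1) + 2 * d (M 1 1)) / 2 ^ ((1 : Fin 4) : ℕ) % 2 = d (M 1 1) by
            simp; omega]
          exact hdF _
        · rw [show (d (M 0 1) + 2 * d (M 1 1)) / 2 ^ ((2 : Fin 4) : ℕ) % 2 = 0 by
            simp; omega, Nat.cast_zero]
          exact (h 2 (by simp)).symm
        · rw [show (d (M 0 1) + 2 * d (M 1 1)) / 2 ^ ((3 : Fin 4) : ℕ) % 2 = 0 by
            simp; omega, Nat.cast_zero]
          exact (h 3 (by decide)).symm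
    set r := d (M 0 2) + 2 * (d (M 1 2) + 2 * (d (M 2 2) + 2 * (d (M 3 2) + 2 * (d (M 0 3) +
      2 * (d (M 1 3) + 2 * (d (M 2 3) + 2 * d (M 3 3))))))) with hr
    have := hdp (M 0 2); have := hdp (M 1 2); have := hdp (M 2 2); have := hdp (M 3 2)
    have := hdp (M 0 3); have := hdp (M 1 3); have := hdp (M 2 3); have := hdp (M 3 3)
    have hrp : r < 2 ^ (4 * (4 - 2)) := by simp [hr]; omega
    obtain ⟨w, hw⟩ := exists_ok_of_covered hcov _ (mem_redCases hc1p hrp)
    have hs : M = toM F 2 4 (2 + 2 ^ 4 * (c1 + 2 ^ 4 * r)) := by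
      ext i j
      simp only [toM, ent, Matrix.of_apply]
      obtain rfl|rfl|rfl|rfl : j = 0 ∨ j = 1 ∨ j = 2 ∨ j = 3 := (by fin_cases j <;> simp)
      · rw [show (2 + 2 ^ 4 * (c1 + 2 ^ 4 * r)) / 2 ^ (4 * ((0 : Fin 4) : ℕ) + i) % 2 =
            2 / 2 ^ (i : ℕ) % 2 by
          obtain rfl|rfl|rfl|rfl : i = 0 ∨ i = 1 ∨ i = 2 ∨ i = 3 := (by fin_cases i <;> simp) <;> simp at hc1p ⊢ <;> omega]
        refine (hc0 i).trans ?_
        obtain rfl|rfl|rfl|rfl : i = 0 ∨ i = 1 ∨ i = 2 ∨ i = 3 := (by fin_cases i <;> simp) <;> simp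
      · rw [show (2 + 2 ^ 4 * (c1 + 2 ^ 4 * r)) / 2 ^ (4 * ((1 : Fin 4) : ℕ) + i) % 2 =
            c1 / 2 ^ (i : ℕ) % 2 by
          obtain rfl|rfl|rfl|rfl : i = 0 ∨ i = 1 ∨ i = 2 ∨ i = 3 := (by fin_cases i <;> simp) <;> simp at hc1p ⊢ <;> omega]
        exact (e1 i).symm
      · rw [show (2 + 2 ^ 4 * (c1 + 2 ^ 4 * r)) / 2 ^ (4 * ((2 : Fin 4) : ℕ) + i) % 2 =
            r / 2 ^ (i : ℕ) % 2 by
          obtain rfl|rfl|rfl|rfl : i = 0 ∨ i = 1 ∨ i = 2 ∨ i = 3 := (by fin_cases i <;> simp) <;> simp at hc1p ⊢ <;> omega]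
        obtain rfl|rfl|rfl|rfl : i = 0 ∨ i = 1 ∨ i = 2 ∨ i = 3 := (by fin_cases i <;> simp) <;> refine (hdF (M _ _)).symm.trans (congrArg Nat.cast ?_) <;>
          simp [hr] <;> omega
      · rw [show (2 + 2 ^ 4 * (c1 + 2 ^ 4 * r)) / 2 ^ (4 * ((3 : Fin 4) : ℕ) + i) % 2 =
            r / 2 ^ (4 + (i : ℕ)) % 2 by
          obtain rfl|rfl|rfl|rfl : i = 0 ∨ i = 1 ∨ i = 2 ∨ i = 3 := (by fin_cases i <;> simp) <;> simp at hc1p ⊢ <;> omega]
        obtain rfl|rfl|rfl|rfl : i = 0 ∨ i = 1 ∨ i = 2 ∨ i = 3 := (by fin_cases i <;> simp) <;> refine (hdF (M _ _)).symm.trans (congrArg Nat.cast ?_) <;>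
          simp [hr] <;> omega
    exact gpair_of_ok (n := 3) b hS hs hone hcc hw
  · push Not at hns
    obtain ⟨a, ha⟩ := hns
    obtain rfl := hscal a ha
    let b : Basis (Fin 4) F V := Module.finBasisOfFinrankEq F V hV
    have hg : Good (X ^ 4 - ∑ i, C (c i) * X ^ (i : ℕ)) (Matrix.toLin b b (comp c)) :=
      good_of_comp (n := 3) b (Q := 1) (Qi := 1) (mul_one 1) (by rw [mul_one, one_mul])
    exact ⟨_, _, hg, hg, by rw [ha, one_smul, one_mul]⟩

/-- `X ^ 3 + 1` over two elements. -/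
theorem base_32 (hF : Fintype.card F = 2) (hV : finrank F V = 3) {S : Module.End F V}
    (hS : LinearMap.det S = 1) : GPair (X ^ 3 + 1 : F[X]) S := by
  obtain ⟨hch, hd⟩ := exists_digit (F := F) Nat.prime_two hF
  have h := gpair_three (Or.inl rfl) hF covered32 (c := ![1, 0, 0])
    (by ext i j; fin_cases i <;> fin_cases j <;> simp [toM, ent])
    (by ext i j; fin_cases i <;> fin_cases j <;> simp [toM, ent, comp]) hV hS
    (fun a ha => by
      obtain ⟨k, hk, rfl⟩ := hd a
      interval_cases k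
      · simp [ha, hV] at hS
      · simp)
  convert h using 1
  simp [Fin.sum_univ_three, CharTwo.sub_eq_add]

end Cfsg.Agent.H87.Ore
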