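import Cfsg.Agent.H87.Ore.Basic
import Cfsg.Agent.H87.Ore.Choice

/-!
The reduction step and the induction on the dimension.
-/

set_option autoImplicit false

namespace Cfsg.Agent.H87.Ore

open Polynomial Module

universe u v

/-- The prime divisors of `g` are few and none divides `X - 1`. -/
def Sep {F : Type u} [Field F] [Fintype F] (g : F[X]) : Prop :=
  ∃ s : Finset F[X], s.card < Fintype.card F ∧ (∀ P ∈ s, Prime P ∧ ¬ P ∣ X - 1) ∧
    ∀ a : F[X], (∀ P ∈ s, ¬ P ∣ a) → IsCoprime a g

variable {F : Type u} [Field F] {V : Type v} [AddCommGroup V] [Module F V]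

lemma aeval_fixed (L : Module.End F V) {x : V} (h : L x = x) (p : F[X]) :
    aeval L p x = p.eval 1 • x := by
  induction p using Polynomial.induction_on' with
  | add p r hp hr => simp [hp, hr, add_smul]
  | monomial i a =>
    have : ∀ i : ℕ, (L ^ i) x = x := fun i => by
      induction i with
      | zero => simp
      | succ i ih => rw [pow_succ, Module.End.mul_apply, h, ih]
    simp [aeval_monomial, this]

variable [Fintype F]

lemma exists_eps {g a : F[X]} (hsep : Sep g) :
    ∃ ε : F, IsCoprime (a + C ε * (X - 1)) g := by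
  classical
  obtain ⟨s, hs, hP, hcop⟩ := hsep
  have h : ∃ ε : F, ∀ P ∈ s, ¬ P ∣ a + C ε * (X - 1) := by
    by_contra hcon
    push Not at hcon
    choose f hf using hcon
    obtain ⟨x, -, y, -, hne, he⟩ := Finset.exists_ne_map_eq_of_card_lt_of_maps_to
      (s := (Finset.univ : Finset F)) (t := s) (f := f) (by rwa [Finset.card_univ])
      (fun x _ => (hf x).1)
    have h1 := dvd_sub (hf x).2 (he ▸ (hf y).2)
    rw [show a + C x * (X - 1) - (a + C y * (X - 1)) = C (x - y) * (X - 1) by
      rw [C_sub]; ring] at h1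
    rcases (hP _ (hf x).1).1.dvd_or_dvd h1 with h2 | h2
    · exact (hP _ (hf x).1).1.not_unit (isUnit_of_dvd_unit h2
        (isUnit_C.2 (sub_ne_zero.2 hne).isUnit))
    · exact (hP _ (hf x).1).2 h2
  obtain ⟨ε, hε⟩ := h
  exact ⟨ε, hcop _ hε⟩

variable [FiniteDimensional F V]

/-- One step. -/
theorem pair_step {g : F[X]} (hg : g.Monic) (hg1 : g.eval 1 ≠ 0) (hsep : Sep g) {k : ℕ}
    (S : Module.End F V) (φ : Module.Dual F V) (v : V) (hSv : φ (S v) = 1) (hv : φ v = 1)
    (hdim : (g * (X - 1) ^ k).natDegree = finrank F (LinearMap.ker φ))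
    {L' G' : Module.End F (LinearMap.ker φ)} (hL : Good (g * (X - 1) ^ k) L')
    (hG : Good (g * (X - 1) ^ k) G') (hLG : L' = redMap S φ v hSv * G')
    (hk : 0 < k → (∀ h : LinearMap.ker φ, ((L' - 1) h : V) ≠ (S - 1) v) ∧
      ∀ h : LinearMap.ker φ, h ≠ 0 → G' h = h → φ (S (h : V)) ≠ 0) :
    ∃ L G : Module.End F V, Good (g * (X - 1) ^ (k + 1)) L ∧ Good (g * (X - 1) ^ (k + 1)) G ∧
      L = S * G ∧ (∀ x, φ ((L - 1) x) = 0) ∧ ∀ y, G y = y → y = φ y • v := by
  classical
  set f' := g * (X - 1) ^ k with hf'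
  have hm1 : (X - 1 : F[X]).Monic := by simpa using monic_X_sub_C (1 : F)
  have hf'm : f'.Monic := hg.mul (hm1.pow k)
  set w := (S - 1) v with hw
  have hwH : φ w = 0 := by simp [hw, hSv, hv]
  have hSv' : S v = v + w := by simp [hw]
  set ι := (LinearMap.ker φ).subtype
  let π : V →ₗ[F] LinearMap.ker φ := LinearMap.codRestrict _ (LinearMap.id - φ.smulRight v)
    fun x => by simp [hv]
  have hπ : ∀ x, (π x : V) = x - φ x • v := fun x => rfl
  have hπh : ∀ h : LinearMap.ker φ, π (h : V) = h := fun h => Subtype.ext (by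
    rw [hπ, LinearMap.mem_ker.1 h.2, zero_smul, sub_zero])
  have hπv : π v = 0 := Subtype.ext (by rw [hπ, hv, one_smul, sub_self]; rfl)
  let L : Module.End F V := ι.comp (L'.comp π) + φ.smulRight (v + w)
  let G : Module.End F V := ι.comp (G'.comp π) -
    ((φ.comp S).comp (ι.comp (G'.comp π))).smulRight v + φ.smulRight v
  have Lap : ∀ x, L x = (L' (π x) : V) + φ x • (v + w) := fun x => rfl
  have Gap : ∀ x, G x = (G' (π x) : V) - φ (S (G' (π x) : V)) • v + φ x • v := fun x => rfl
  have hmul : L = S * G := LinearMap.ext fun x => by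
    rw [Module.End.mul_apply, Lap, Gap, map_add, map_sub, map_smul, map_smul, hSv']
    have := congrArg Subtype.val (LinearMap.congr_fun hLG (π x))
    rw [Module.End.mul_apply, redMap_apply] at this
    rw [this, hSv']
  have hLh : ∀ h : LinearMap.ker φ, L (h : V) = (L' h : V) := fun h => by
    rw [Lap, hπh, LinearMap.mem_ker.1 h.2, zero_smul, add_zero]
  have hπG : ∀ x, π (G x) = G' (π x) := fun x => by
    rw [Gap, map_add, map_sub, map_smul, map_smul, hπv, hπh, smul_zero, smul_zero, sub_zero,
      add_zero]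
  have hLp : ∀ (p : F[X]) (h : LinearMap.ker φ), aeval L p (h : V) = (aeval L' p h : V) := by
    intro p
    induction p using Polynomial.induction_on' with
    | add p r hp hr => intro h; simp [hp, hr]
    | monomial i a =>
      intro h
      simp only [aeval_monomial, Module.End.mul_apply, Module.algebraMap_end_apply]
      rw [Submodule.coe_smul]
      congr 1
      induction i generalizing h with
      | zero => simp
      | succ i ih => rw [pow_succ, pow_succ, Module.End.mul_apply, Module.End.mul_apply, hLh, ih]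
  have hGp : ∀ (p : F[X]) (x : V), π (aeval G p x) = aeval G' p (π x) := by
    intro p
    induction p using Polynomial.induction_on' with
    | add p r hp hr => intro x; simp [hp, hr]
    | monomial i a =>
      intro x
      simp only [aeval_monomial, Module.End.mul_apply, Module.algebraMap_end_apply, map_smul]
      congr 1
      induction i generalizing x with
      | zero => simp
      | succ i ih => rw [pow_succ, pow_succ, Module.End.mul_apply, Module.End.mul_apply, ih, hπG]
  have hsplit : ∀ x, x = (π x : V) + φ x • v := fun x => by rw [hπ]; abel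
  have hL1 : ∀ x, φ ((L - 1) x) = 0 := fun x => by
    have h1 : φ (L' (π x) : V) = 0 := LinearMap.mem_ker.1 (L' (π x)).2
    rw [LinearMap.sub_apply, Module.End.one_apply, Lap, map_sub, map_add, h1, map_smul, map_add,
      hv, hwH]
    simp
  have hGv : G v = v := by rw [Gap, hπv, map_zero, hv]; simp
  obtain ⟨hL0, u₀, hu₀⟩ := hL
  obtain ⟨hG0, u₁, hu₁⟩ := hG
  -- annihilation
  have hLf : aeval L (f' * (X - 1)) = 0 := LinearMap.ext fun x => by
    have h1 : aeval L (X - 1 : F[X]) x = ((⟨(L - 1) x, LinearMap.mem_ker.2 (hL1 x)⟩ :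
        LinearMap.ker φ) : V) := by simp
    rw [map_mul, Module.End.mul_apply, h1, hLp, hL0]
    simp
  have hGf : aeval G ((X - 1) * f') = 0 := LinearMap.ext fun x => by
    have h1 : π (aeval G f' x) = 0 := by rw [hGp, hG0]; rfl
    rw [map_mul, Module.End.mul_apply, hsplit (aeval G f' x), h1]
    simp [hGv]
  -- generators
  have hLgen : ∃ u, ∀ x, ∃ p : F[X], aeval L p u = x := by
    obtain ⟨a, ha⟩ := hu₀ ⟨w, LinearMap.mem_ker.2 hwH⟩
    obtain ⟨ε, hε⟩ := exists_eps (a := a) hsep
    have hcop : IsCoprime (a + C ε * (X - 1)) f' := by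
      rcases Nat.eq_zero_or_pos k with hk0 | hk0
      · rwa [hf', hk0, pow_zero, mul_one]
      refine hε.mul_right (IsCoprime.pow_right ?_)
      have hirr : Irreducible (X - 1 : F[X]) := by simpa using irreducible_X_sub_C (1 : F)
      refine ((hirr.coprime_iff_not_dvd).2 fun hd => ?_).symm
      have h1 : (X - 1 : F[X]) ∣ a := by
        simpa using dvd_sub hd (dvd_mul_left (X - 1) (C ε))
      obtain ⟨a', rfl⟩ := h1
      refine (hk hk0).1 (aeval L' a' u₀) ?_
      rw [map_mul, Module.End.mul_apply] at ha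
      simpa using congrArg Subtype.val ha
    obtain ⟨r, r', hrr⟩ := hcop
    have hy : (L - 1) (v + ε • (u₀ : V)) = (aeval L' (a + C ε * (X - 1)) u₀ : V) := by
      rw [map_add (aeval L'), map_mul, aeval_C, map_sub, aeval_X, map_one, LinearMap.add_apply, ha]
      simp only [Module.End.mul_apply, Module.algebraMap_end_apply, LinearMap.sub_apply,
        Module.End.one_apply, Submodule.coe_add, Submodule.coe_smul, Submodule.coe_sub, map_add,
        map_smul, hLh]
      rw [Lap, hπv, map_zero, hv, ZeroMemClass.coe_zero, zero_add, one_smul]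
      module
    have hu : ∀ h : LinearMap.ker φ, ∃ p : F[X], aeval L p (v + ε • (u₀ : V)) = h := by
      intro h
      obtain ⟨p, hp⟩ := hu₀ h
      refine ⟨p * r * (X - 1), ?_⟩
      rw [map_mul, Module.End.mul_apply, map_sub, aeval_X, map_one, hy, hLp, ← Module.End.mul_apply,
        ← map_mul, ← hp]
      congr 1
      have hone : aeval L' (r * (a + C ε * (X - 1))) = 1 := by
        have := congrArg (aeval L') hrr
        rwa [map_add, map_mul _ r', hL0, mul_zero, add_zero, map_one] at this
      rw [mul_assoc, map_mul, hone, mul_one]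
    refine ⟨v + ε • (u₀ : V), fun x => ?_⟩
    obtain ⟨p, hp⟩ := hu (π x - (φ x * ε) • u₀)
    refine ⟨p + C (φ x), ?_⟩
    rw [map_add (aeval L) p, LinearMap.add_apply, hp, aeval_C, Module.algebraMap_end_apply,
      Submodule.coe_sub, Submodule.coe_smul, hπ]
    module
  have hGgen : ∃ u, ∀ x, ∃ p : F[X], aeval G p u = x := by
    obtain ⟨u, hu, hv'⟩ : ∃ u, π u = u₁ ∧ ∃ (p : F[X]) (s : F), s ≠ 0 ∧ aeval G p u = s • v := by
      rcases Nat.eq_zero_or_pos k with hk0 | hk0
      · have hf : f' = g := by rw [hf', hk0, pow_zero, mul_one]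
        have h1 : π (aeval G g (u₁ : V)) = 0 := by rw [hGp, hπh, ← hf, hG0]; rfl
        have h2 := hsplit (aeval G g (u₁ : V))
        rw [h1, ZeroMemClass.coe_zero, zero_add] at h2
        refine ⟨(u₁ : V) + ((1 - φ (aeval G g (u₁ : V))) / g.eval 1) • v, ?_, g, 1, one_ne_zero, ?_⟩
        · rw [map_add, map_smul, hπh, hπv, smul_zero, add_zero]
        · rw [map_add, map_smul, aeval_fixed G hGv, smul_smul, div_mul_cancel₀ _ hg1]
          nth_rewrite 1 [h2]
          rw [← add_smul, add_sub_cancel]
      · set h := g * (X - 1) ^ (k - 1) with hh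
        have hfh : f' = h * (X - 1) := by
          rw [hf', hh, mul_assoc, ← pow_succ, Nat.sub_add_cancel hk0]
        set y := aeval G' h u₁ with hy
        have hy0 : y ≠ 0 := fun h0 => by
          have hd := dvd_of_aeval_eq_zero hf'm hdim hG0 hu₁ h0
          have hne : h ≠ 0 := (hg.mul (hm1.pow _)).ne_zero
          have := Polynomial.natDegree_le_of_dvd hd hne
          rw [hfh, Polynomial.Monic.natDegree_mul (hg.mul (hm1.pow _)) hm1,
            show (X - 1 : F[X]).natDegree = 1 by simpa using natDegree_X_sub_C (1 : F)] at this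
          simp only [hh] at this
          omega
        have hyf : G' y = y := by
          have : aeval G' (X * h) u₁ = aeval G' h u₁ + aeval G' f' u₁ := by
            rw [← LinearMap.add_apply, ← map_add, hfh]; congr 2; ring
          rw [hG0, map_mul, aeval_X, Module.End.mul_apply] at this
          simpa using this
        have e := hsplit (aeval G h (u₁ : V))
        rw [hGp, hπh, ← hy] at e
        refine ⟨(u₁ : V), hπh u₁, (X - 1) * h, -φ (S (y : V)),
          neg_ne_zero.2 ((hk hk0).2 y hy0 hyf), ?_⟩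
        rw [map_mul, Module.End.mul_apply, e, map_sub, aeval_X, map_one, LinearMap.sub_apply,
          Module.End.one_apply, map_add, map_smul, hGv, Gap, hπh, hyf,
          LinearMap.mem_ker.1 y.2]
        module
    obtain ⟨p₀, s, hs, hp₀⟩ := hv'
    refine ⟨u, fun x => ?_⟩
    obtain ⟨p, hp⟩ := hu₁ (π x)
    refine ⟨p + C ((φ x - φ (aeval G p u)) / s) * p₀, ?_⟩
    have h1 : π (aeval G p u) = π x := by rw [hGp, hu, hp]
    rw [map_add, LinearMap.add_apply, map_mul, Module.End.mul_apply, hp₀, aeval_C,
      Module.algebraMap_end_apply, smul_smul, div_mul_cancel₀ _ hs]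
    conv_rhs => rw [hsplit x]
    conv_lhs => arg 1; rw [hsplit (aeval G p u), h1]
    module
  have hf : g * (X - 1) ^ (k + 1) = f' * (X - 1) := by rw [hf', pow_succ]; ring
  refine ⟨L, G, ⟨?_, hLgen⟩, ⟨?_, hGgen⟩, hmul, hL1, fun y hy => ?_⟩
  · rw [hf, hLf]
  · rw [hf, mul_comm, hGf]
  · have h1 : G' (π y) = π y := by rw [← hπG, hy]
    have h2 : π y = 0 := by
      by_contra h0
      rcases Nat.eq_zero_or_pos k with hk0 | hk0
      · have := aeval_fixed G' h1 g
        rw [show g = f' by rw [hf', hk0, pow_zero, mul_one], hG0] at this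
        have hf1 : f'.eval 1 ≠ 0 := by rw [hf', hk0, pow_zero, mul_one]; exact hg1
        exact h0 ((smul_eq_zero.1 this.symm).resolve_left hf1)
      · have h3 := Gap y
        rw [hy, h1] at h3
        have h4 := congrArg φ h3
        simp only [map_add, map_sub, map_smul, LinearMap.mem_ker.1 (π y).2, hv, smul_eq_mul,
          mul_one, zero_sub] at h4
        exact (hk hk0).2 _ h0 h1 (by linear_combination h4)
    have := hsplit y
    rwa [h2, ZeroMemClass.coe_zero, zero_add] at this

/-- The determinant of the reduced operator. -/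
lemma det_redMap (S : Module.End F V) (φ : Module.Dual F V) (v : V) (hSv : φ (S v) = 1)
    (hv : φ v = 1) : LinearMap.det (redMap S φ v hSv) = LinearMap.det S := by
  have hc : IsCompl (LinearMap.ker φ) (Submodule.span F {v}) := by
    constructor
    · rw [Submodule.disjoint_def]
      intro x hx hx'
      obtain ⟨a, rfl⟩ := Submodule.mem_span_singleton.1 hx'
      simp [hv] at hx
      rw [hx, zero_smul]
    · rw [codisjoint_iff, eq_top_iff]
      intro x _
      rw [show x = (x - φ x • v) + φ x • v by abel]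
      exact Submodule.add_mem_sup (by simp [hv])
        (Submodule.smul_mem _ _ (Submodule.mem_span_singleton_self v))
  set e := Submodule.prodEquivOfIsCompl _ _ hc with he
  set η := φ.comp (S.comp (LinearMap.id - φ.smulRight v)) with hη
  set R : Module.End F V := LinearMap.transvection φ (v - S v) * S *
    LinearMap.transvection η (-v) with hR
  have hηv : η v = 0 := by simp [hη, hv]
  have hdR : LinearMap.det R = LinearMap.det S := by
    rw [hR, map_mul, map_mul, LinearMap.transvection.det, LinearMap.transvection.det, map_sub,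
      map_neg, hηv, hv, hSv]
    simp
  have hRe : R = e.toLinearMap ∘ₗ (LinearMap.prodMap (redMap S φ v hSv) LinearMap.id) ∘ₗ
      e.symm.toLinearMap := by
    refine LinearMap.ext fun x => ?_
    obtain ⟨⟨h, t⟩, rfl⟩ := e.surjective x
    simp only [LinearMap.comp_apply, LinearEquiv.coe_toLinearMap, LinearEquiv.coe_coe,
      LinearEquiv.symm_apply_apply, LinearMap.prodMap_apply, LinearMap.id_apply]
    simp only [he, Submodule.coe_prodEquivOfIsCompl', redMap_apply]
    obtain ⟨a, ha⟩ := Submodule.mem_span_singleton.1 t.2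
    have hh := LinearMap.mem_ker.1 h.2
    rw [← ha, hR, Module.End.mul_apply, Module.End.mul_apply, LinearMap.transvection.apply,
      LinearMap.transvection.apply]
    have : η ((h : V) + a • v) = φ (S (h : V)) := by simp [hη, hh, hv, smul_sub]
    rw [this]
    simp [map_add, map_smul, hSv, hv, smul_sub, smul_neg]
    module
  rw [← hdR, hRe, LinearMap.det_conj, LinearMap.det_prodMap, LinearMap.det_id, mul_one]

/-- Base hypothesis. -/
def BaseOK (F : Type u) [Field F] [Fintype F] (g : F[X]) : Prop :=
  ∀ (V : Type v) [AddCommGroup V] [Module F V] [FiniteDimensional F V],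
    finrank F V = g.natDegree → ∀ S : Module.End F V, LinearMap.det S = 1 →
      (∀ l : F, S = l • 1 → l = 1) → GPair g S

/-- Size conditions on the degree of `g`. -/
def DegOK (F : Type u) [Field F] [Fintype F] (g : F[X]) : Prop :=
  2 ≤ g.natDegree ∧ (Fintype.card F ≤ 3 → 3 ≤ g.natDegree) ∧
    (Fintype.card F = 2 → 4 ≤ g.natDegree)

omit [Fintype F] in
lemma natDegree_tail {g : F[X]} (hg : g.Monic) (k : ℕ) :
    (g * (X - 1) ^ k).natDegree = g.natDegree + k := by
  have hm1 : (X - 1 : F[X]).Monic := by simpa using monic_X_sub_C (1 : F)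
  rw [hg.natDegree_mul (hm1.pow k), hm1.natDegree_pow,
    show (X - 1 : F[X]).natDegree = 1 by simpa using natDegree_X_sub_C (1 : F), mul_one]

/-- The induction. -/
theorem tail {g : F[X]} (hg : g.Monic) (hg1 : g.eval 1 ≠ 0) (hsep : Sep g) (hdeg : DegOK F g)
    (hbase : BaseOK.{u, v} F g) : ∀ (k : ℕ) (V : Type v) [AddCommGroup V] [Module F V]
    [FiniteDimensional F V], finrank F V = g.natDegree + (k + 1) →
    ∀ S : Module.End F V, LinearMap.det S = 1 → 2 ≤ finrank F (LinearMap.range (S - 1)) →
    (∀ l : F, S ≠ l • 1) → ∀ c : V, c ≠ 0 → ∀ b : Module.Dual F V, b ≠ 0 →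
    ∃ L G : Module.End F V, Good (g * (X - 1) ^ (k + 1)) L ∧ Good (g * (X - 1) ^ (k + 1)) G ∧
      L = S * G ∧ (∀ x, (L - 1) x ≠ c) ∧ ∀ y, y ≠ 0 → G y = y → b y ≠ 0 := by
  obtain ⟨d2, d3, d4⟩ := hdeg
  intro k
  induction k with
  | zero =>
    intro V _ _ _ hV S hS hr hns c hc b hb
    have hinj : Function.Injective S :=
      LinearMap.ker_eq_bot.1 (by
        by_contra h
        exact one_ne_zero (α := F) (hS ▸ LinearMap.det_eq_zero_iff_ker_ne_bot.2 h))
    obtain ⟨v, φ, hSv, hv, hbv, hφc, -, hsc, -⟩ := exists_choice (full := False) (by omega)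
      (fun h => by have := d3 (by omega); omega) hinj hns (fun h => h.elim) hr hc hb
    have hfr : finrank F (LinearMap.ker φ) = g.natDegree := by
      have h4 := LinearMap.finrank_range_add_finrank_ker φ
      have h5 : finrank F (LinearMap.range φ) = 1 := by
        rw [LinearMap.range_eq_top.2 fun a => ⟨a • v, by simp [hv]⟩, finrank_top, Module.finrank_self]
      omega
    obtain ⟨L', G', hL, hG, hLG⟩ := hbase _ hfr (redMap S φ v hSv)
      (by rw [det_redMap S φ v hSv hv, hS]) hsc
    obtain ⟨L, G, h1, h2, h3, h4, h5⟩ := pair_step (k := 0) hg hg1 hsep S φ v hSv hv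
      (by rw [pow_zero, mul_one, hfr]) (L' := L') (G' := G')
      (by rwa [pow_zero, mul_one]) (by rwa [pow_zero, mul_one]) hLG (fun h => absurd h (lt_irrefl 0))
    refine ⟨L, G, h1, h2, h3, fun x h => hφc (h ▸ h4 x), fun y hy hGy hby => ?_⟩
    rw [h5 y hGy, map_smul, smul_eq_mul, mul_eq_zero] at hby
    exact hy (by rw [h5 y hGy, hby.resolve_right hbv, zero_smul])
  | succ k ih =>
    intro V _ _ _ hV S hS hr hns c hc b hb
    have hinj : Function.Injective S :=
      LinearMap.ker_eq_bot.1 (by
        by_contra h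
        exact one_ne_zero (α := F) (hS ▸ LinearMap.det_eq_zero_iff_ker_ne_bot.2 h))
    obtain ⟨v, φ, hSv, hv, hbv, hφc, hw0, hsc, hfull⟩ := exists_choice (full := True) (by omega)
      (fun h => by have := d3 (by omega); omega) hinj hns
      (fun _ => ⟨by omega, fun h => by have := d3 h; omega, fun h => by have := d4 h; omega⟩)
      hr hc hb
    obtain ⟨⟨x₀, hx₀, hx₁⟩, hrank⟩ := hfull trivial
    have hfr : finrank F (LinearMap.ker φ) = g.natDegree + (k + 1) := by
      have h4 := LinearMap.finrank_range_add_finrank_ker φ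
      have h5 : finrank F (LinearMap.range φ) = 1 := by
        rw [LinearMap.range_eq_top.2 fun a => ⟨a • v, by simp [hv]⟩, finrank_top, Module.finrank_self]
      omega
    have hns' : ∀ l : F, redMap S φ v hSv ≠ l • 1 := fun l hl => by
      rw [hl, hsc l hl, one_smul, sub_self, LinearMap.range_zero, finrank_bot] at hrank
      omega
    have hwH : (S - 1) v ∈ LinearMap.ker φ := by simp [hSv, hv]
    obtain ⟨L', G', hL, hG, hLG, hc', hb'⟩ := ih _ hfr (redMap S φ v hSv)
      (by rw [det_redMap S φ v hSv hv, hS]) hrank hns'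
      ⟨(S - 1) v, hwH⟩ (fun h => hw0 (congrArg Subtype.val h))
      ((φ.comp S).comp (LinearMap.ker φ).subtype)
      (fun h => hx₁ (LinearMap.congr_fun h ⟨x₀, LinearMap.mem_ker.2 hx₀⟩))
    obtain ⟨L, G, h1, h2, h3, h4, h5⟩ := pair_step (k := k + 1) hg hg1 hsep S φ v hSv hv
      (by rw [natDegree_tail hg, hfr]) hL hG hLG
      (fun _ => ⟨fun h e => hc' h (Subtype.ext e), hb'⟩)
    refine ⟨L, G, h1, h2, h3, fun x h => hφc (h ▸ h4 x), fun y hy hGy hby => ?_⟩
    rw [h5 y hGy, map_smul, smul_eq_mul, mul_eq_zero] at hby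
    exact hy (by rw [h5 y hGy, hby.resolve_right hbv, zero_smul])

end Cfsg.Agent.H87.Ore
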